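import Mathlib
import Cfsg.Agent.H398.CC.Data

/-!
# Alternating groups and abelian CC-subgroups `P` of odd order with `|N(P)| = 2|P|`
-/

set_option autoImplicit false

namespace Cfsg.Agent.H398.CC

open Subgroup Cfsg Equiv.Perm

universe u

variable {G : Type u} [Group G] {P : Subgroup G}

section

variable {n : ℕ} (hn : 8 ≤ n)

/-- the point `i` -/
def pt (hn : 8 ≤ n) (i : Fin 8) : Fin n := ⟨i, i.2.trans_le hn⟩

theorem pt_ne {i j : Fin 8} (h : i ≠ j) : pt hn i ≠ pt hn j := by
  intro h'
  apply h
  exact Fin.ext (by have := congrArg Fin.val h'; exact this)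

/-- the involution `(0 1)(2 3)` -/
def invA (hn : 8 ≤ n) : Equiv.Perm (Fin n) :=
  Equiv.swap (pt hn 0) (pt hn 1) * Equiv.swap (pt hn 2) (pt hn 3)

/-- the involution `(4 5)(6 7)` -/
def invB (hn : 8 ≤ n) : Equiv.Perm (Fin n) :=
  Equiv.swap (pt hn 4) (pt hn 5) * Equiv.swap (pt hn 6) (pt hn 7)

theorem disj_swap {i j k l : Fin 8} (h : [i, j, k, l].Nodup) :
    Disjoint (Equiv.swap (pt hn i) (pt hn j)) (Equiv.swap (pt hn k) (pt hn l)) := by
  apply disjoint_swap_swap
  have h2 : [pt hn i, pt hn j, pt hn k, pt hn l] = [i, j, k, l].map (pt hn) := rfl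
  rw [h2]
  exact h.map fun a b hab => by
    by_contra hne
    exact pt_ne hn hne hab

theorem disj_AB : Disjoint (invA hn) (invB hn) :=
  Disjoint.mul_left
    (Disjoint.mul_right (disj_swap hn (by decide)) (disj_swap hn (by decide)))
    (Disjoint.mul_right (disj_swap hn (by decide)) (disj_swap hn (by decide)))

theorem card_A : (invA hn).support.card = 4 := by
  unfold invA
  rw [Disjoint.card_support_mul (disj_swap hn (by decide)), card_support_swap (pt_ne hn (by decide)),
    card_support_swap (pt_ne hn (by decide))]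

theorem card_B : (invB hn).support.card = 4 := by
  unfold invB
  rw [Disjoint.card_support_mul (disj_swap hn (by decide)), card_support_swap (pt_ne hn (by decide)),
    card_support_swap (pt_ne hn (by decide))]

theorem sign_A : sign (invA hn) = 1 := by
  unfold invA
  rw [Equiv.Perm.sign_mul, sign_swap (pt_ne hn (by decide)), sign_swap (pt_ne hn (by decide))]
  rfl

theorem sign_B : sign (invB hn) = 1 := by
  unfold invB
  rw [Equiv.Perm.sign_mul, sign_swap (pt_ne hn (by decide)), sign_swap (pt_ne hn (by decide))]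
  rfl

theorem sq_A : invA hn * invA hn = 1 := by
  unfold invA
  have h := (disj_swap hn (show [0, 1, 2, 3].Nodup by decide)).commute.eq
  rw [mul_assoc, ← mul_assoc (Equiv.swap (pt hn 2) (pt hn 3)), ← h]
  simp [mul_assoc]

theorem sq_B : invB hn * invB hn = 1 := by
  unfold invB
  have h := (disj_swap hn (show [4, 5, 6, 7].Nodup by decide)).commute.eq
  rw [mul_assoc, ← mul_assoc (Equiv.swap (pt hn 6) (pt hn 7)), ← h]
  simp [mul_assoc]

/-- `A_n`, `n ≥ 8`, has two classes of involutions. -/
theorem exists_two_classes (hn : 8 ≤ n) : ∃ s t : alternatingGroup (Fin n),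
    orderOf s = 2 ∧ orderOf t = 2 ∧ ¬ IsConj s t := by
  have hA : invA hn ≠ 1 := fun h => by
    have := card_A hn
    rw [h, support_one] at this
    simp at this
  have hAB : invA hn * invB hn ≠ 1 := fun h => by
    have := (disj_AB hn).card_support_mul
    rw [h, support_one, card_A, card_B] at this
    simp at this
  have hsq : (invA hn * invB hn) * (invA hn * invB hn) = 1 := by
    have h := (disj_AB hn).commute.eq
    calc (invA hn * invB hn) * (invA hn * invB hn) = invA hn * (invB hn * invA hn) * invB hn := by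
          group
      _ = invA hn * (invA hn * invB hn) * invB hn := by rw [← h]
      _ = (invA hn * invA hn) * (invB hn * invB hn) := by group
      _ = 1 := by rw [sq_A, sq_B, one_mul]
  refine ⟨⟨invA hn, mem_alternatingGroup.2 (sign_A hn)⟩,
    ⟨invA hn * invB hn, mem_alternatingGroup.2 (by rw [Equiv.Perm.sign_mul, sign_A, sign_B, one_mul])⟩,
    ?_, ?_, ?_⟩
  · refine orderOf_eq_prime ?_ ?_
    · apply Subtype.ext
      change (invA hn) ^ 2 = 1
      rw [pow_two, sq_A]
    · intro h; exact hA (congrArg Subtype.val h)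
  · refine orderOf_eq_prime ?_ ?_
    · apply Subtype.ext
      change (invA hn * invB hn) ^ 2 = 1
      rw [pow_two, hsq]
    · intro h; exact hAB (congrArg Subtype.val h)
  · intro h
    obtain ⟨c, hc⟩ := isConj_iff.1 h
    have h1 : (c : Equiv.Perm (Fin n)) * invA hn * (c : Equiv.Perm (Fin n))⁻¹ =
        invA hn * invB hn := congrArg Subtype.val hc
    have h2 := card_support_conj (σ := (c : Equiv.Perm (Fin n))) (τ := invA hn)
    rw [h1, (disj_AB hn).card_support_mul, card_A, card_B] at h2
    omega

end

/-- No alternating group of degree at least `8`. -/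
theorem IsDCC.false_of_alt [Finite G] [IsSimpleGroup G] (h : IsDCC P) {n : ℕ} (hn : 8 ≤ n)
    (e : G ≃* alternatingGroup (Fin n)) : False := by
  obtain ⟨s, t, hs, ht, hst⟩ := exists_two_classes hn
  have h1 := h.isConj_of_orderOf_eq_two (s := e.symm s) (t := e.symm t)
    (by rw [MulEquiv.orderOf_eq, hs]) (by rw [MulEquiv.orderOf_eq, ht])
  apply hst
  obtain ⟨c, hc⟩ := isConj_iff.1 h1
  refine isConj_iff.2 ⟨e c, ?_⟩
  have h2 := congrArg e hc
  rw [map_mul, map_mul, map_inv, e.apply_symm_apply, e.apply_symm_apply] at h2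
  exact h2

end Cfsg.Agent.H398.CC
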