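import Mathlib
import Cfsg.Agent.Lib.Zsigmondy

/-!
# Arithmetic: `q ^ a ± 1` does not divide the `p'`-part of the order of a group of Lie type

`Bad q a M` : neither `q ^ a - 1` nor `q ^ a + 1` divides `M`, and `M < (q ^ a - 1) (q ^ a - 2)` if `q ≥ 3`.
-/

set_option autoImplicit false

namespace Cfsg.Agent.H398.CC.Arith

/-- `z` is a primitive prime divisor of `q ^ e - 1`. -/
def Pr (q e z : ℕ) : Prop := z.Prime ∧ 2 < z ∧ ∀ d, z ∣ q ^ d - 1 ↔ e ∣ d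

theorem exists_pr {q e : ℕ} (hq : 2 ≤ q) (he : 3 ≤ e) (h6 : ¬ (q = 2 ∧ e = 6)) : ∃ z, Pr q e z := by
  obtain ⟨z, hz, h1, h2, -⟩ := Cfsg.Agent.Lib.Zsigmondy.exists_primitive (a := q) (n := e) hq (by omega)
    (fun h => absurd h (by omega)) h6
  refine ⟨z, hz, ?_, h1⟩
  have h3 := Nat.le_of_dvd (by have := hz.two_le; omega) h2
  omega

namespace Pr

variable {q e z : ℕ} (h : Pr q e z)

include h

theorem sub {d : ℕ} (hd : z ∣ q ^ d - 1) : e ∣ d := (h.2.2 d).1 hd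

theorem add (hq : 1 ≤ q) {d : ℕ} (hd : z ∣ q ^ d + 1) : e ∣ 2 * d ∧ ¬ e ∣ d := by
  have h1 : 1 ≤ q ^ d := Nat.one_le_pow _ _ hq
  constructor
  · apply (h.2.2 _).1
    have h2 : q ^ (2 * d) - 1 = (q ^ d + 1) * (q ^ d - 1) := by
      rw [mul_comm 2 d, pow_mul]
      have := Nat.sq_sub_sq (q ^ d) 1
      simpa using this
    rw [h2]
    exact hd.mul_right _
  · intro h2
    have h3 := (h.2.2 d).2 h2
    have h4 : z ∣ (q ^ d + 1) - (q ^ d - 1) := Nat.dvd_sub hd h3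
    have h5 : (q ^ d + 1) - (q ^ d - 1) = 2 := by omega
    rw [h5] at h4
    have := Nat.le_of_dvd (by norm_num) h4
    have := h.2.1
    omega

theorem dvd_sub {d : ℕ} (hd : e ∣ d) : z ∣ q ^ d - 1 := (h.2.2 d).2 hd

theorem dvd_add (hq : 1 ≤ q) {d : ℕ} (hd : e = 2 * d) (hd0 : 0 < d) : z ∣ q ^ d + 1 := by
  have h1 : 1 ≤ q ^ d := Nat.one_le_pow _ _ hq
  have h2 : z ∣ q ^ e - 1 := (h.2.2 _).2 dvd_rfl
  have h3 : q ^ e - 1 = (q ^ d + 1) * (q ^ d - 1) := by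
    rw [hd, mul_comm 2 d, pow_mul]
    have := Nat.sq_sub_sq (q ^ d) 1
    simpa using this
  rw [h3] at h2
  rcases (h.1.dvd_mul).1 h2 with h4 | h4
  · exact h4
  · have := h.sub h4
    have := Nat.le_of_dvd hd0 this
    omega

end Pr

/-- The numerical obstruction. -/
structure Bad (q a M : ℕ) : Prop where
  sub : ¬ (q ^ a - 1) ∣ M
  add : ¬ (q ^ a + 1) ∣ M
  lt : 3 ≤ q → M < (q ^ a - 1) * (q ^ a - 2)

/-- size estimate -/
theorem lt_of_le_pow {q a s M : ℕ} (hq : 3 ≤ q) (ha : 2 ≤ a) (hs : s + 1 ≤ 2 * a) (hM : M ≤ q ^ s) :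
    M < (q ^ a - 1) * (q ^ a - 2) := by
  set Q := q ^ a with hQ
  have hQ9 : 9 ≤ Q := by
    calc 9 = 3 ^ 2 := by norm_num
      _ ≤ q ^ 2 := Nat.pow_le_pow_left hq 2
      _ ≤ q ^ a := Nat.pow_le_pow_right (by omega) ha
  have h1 : 3 * M ≤ Q * Q := by
    calc 3 * M ≤ q * q ^ s := Nat.mul_le_mul hq hM
      _ = q ^ (s + 1) := by ring
      _ ≤ q ^ (2 * a) := Nat.pow_le_pow_right (by omega) hs
      _ = Q * Q := by rw [hQ]; ring
  obtain ⟨R, hR⟩ : ∃ R, Q = R + 2 := ⟨Q - 2, by omega⟩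
  rw [hR] at h1 ⊢
  have h2 : R + 2 - 1 = R + 1 := by omega
  have h3 : R + 2 - 2 = R := by omega
  rw [h2, h3]
  have h4 : 7 ≤ R := by omega
  nlinarith

/-- general criterion -/
theorem bad_of {q a s M F : ℕ} (hq : 2 ≤ q) (ha : 2 ≤ a) (hMF : M ∣ F) (hs : s + 1 ≤ 2 * a)
    (hM : 3 ≤ q → M ≤ q ^ s)
    (e : ℕ) (he : 3 ≤ e) (he6 : ¬ (q = 2 ∧ e = 6)) (hea : e ∣ a)
    (h1 : ∀ z, Pr q e z → ¬ z ∣ F) (ha6 : ¬ (q = 2 ∧ 2 * a = 6))
    (h2 : ∀ z, Pr q (2 * a) z → ¬ z ∣ F) : Bad q a M where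
  sub hd := by
    obtain ⟨z, hz⟩ := exists_pr hq he he6
    exact h1 z hz (((hz.dvd_sub hea).trans hd).trans hMF)
  add hd := by
    obtain ⟨z, hz⟩ := exists_pr hq (by omega : 3 ≤ 2 * a) ha6
    exact h2 z hz (((hz.dvd_add (by omega) rfl (by omega)).trans hd).trans hMF)
  lt h3 := lt_of_le_pow h3 ha hs (hM h3)

/-- the order of `q` modulo `z` divides an exponent in a product -/
theorem exists_of_dvd_prod {q e z n : ℕ} (hz : Pr q e z) {f : ℕ → ℕ}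
    (h : z ∣ ∏ i ∈ Finset.range n, (q ^ f i - 1)) : ∃ i < n, e ∣ f i := by
  rw [Prime.dvd_finsetProd_iff hz.1.prime] at h
  obtain ⟨i, hi, h1⟩ := h
  exact ⟨i, Finset.mem_range.1 hi, hz.sub h1⟩

theorem prod_le_pow (q n : ℕ) (f : ℕ → ℕ) :
    ∏ i ∈ Finset.range n, (q ^ f i - 1) ≤ q ^ (∑ i ∈ Finset.range n, f i) := by
  rw [← Finset.prod_pow_eq_pow_sum]
  exact Finset.prod_le_prod' fun i _ => Nat.sub_le _ _

theorem sum_two_mul (n : ℕ) : ∑ i ∈ Finset.range n, 2 * (i + 1) = n * (n + 1) := by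
  induction n with
  | zero => rfl
  | succ n ih => rw [Finset.sum_range_succ, ih]; ring

theorem sum_succ (n : ℕ) : 2 * ∑ i ∈ Finset.range n, (i + 1) = n * (n + 1) := by
  induction n with
  | zero => rfl
  | succ n ih => rw [Finset.sum_range_succ, mul_add, ih]; ring

/-! ### linear groups -/

/-- `2 * (n (n - 1) / 2) = n (n - 1)` -/
theorem two_tri (n : ℕ) : 2 * (n * (n - 1) / 2) = n * (n - 1) :=
  Nat.mul_div_cancel' (Nat.even_mul_pred_self n).two_dvd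

theorem lin_bad {n q M : ℕ} (hn : 4 ≤ n) (hq : 2 ≤ q) (h42 : ¬ (n = 4 ∧ q = 2)) {g : ℕ} (hg : 1 ≤ g)
    (hM : g * (q - 1) * M = ∏ i ∈ Finset.range n, (q ^ (i + 1) - 1)) :
    Bad q (n * (n - 1) / 2) M := by
  set a := n * (n - 1) / 2 with ha
  have h2a : 2 * a = n * (n - 1) := two_tri n
  obtain ⟨k, rfl⟩ : ∃ k, n = k + 4 := ⟨n - 4, by omega⟩
  have hk : k + 4 - 1 = k + 3 := by omega
  rw [hk] at h2a
  have hq1 : 0 < q - 1 := by omega
  refine bad_of (s := 2 * a - 1) (F := ∏ i ∈ Finset.range (k + 4), (q ^ (i + 1) - 1)) hq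
    (by nlinarith) ⟨g * (q - 1), by rw [← hM]; ring⟩ (by have : 0 < 2 * a := by nlinarith
                                                         omega) ?_ a (by nlinarith) ?_ dvd_rfl ?_ ?_ ?_
  · intro _
    have h1 : (q - 1) * M ≤ (q - 1) * q ^ (2 * a - 1) := by
      calc (q - 1) * M = 1 * ((q - 1) * M) := by ring
        _ ≤ g * ((q - 1) * M) := Nat.mul_le_mul_right _ hg
        _ = g * (q - 1) * M := by ring
        _ = ∏ i ∈ Finset.range (k + 4), (q ^ (i + 1) - 1) := hM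
        _ = (∏ i ∈ Finset.range (k + 3), (q ^ (i + 1 + 1) - 1)) * (q - 1) := by
            rw [Finset.prod_range_succ']; simp
        _ ≤ q ^ (∑ i ∈ Finset.range (k + 3), (i + 1 + 1)) * (q - 1) :=
            Nat.mul_le_mul_right _ (prod_le_pow _ _ (fun i => i + 1 + 1))
        _ ≤ q ^ (2 * a - 1) * (q - 1) := by
            apply Nat.mul_le_mul_right
            apply Nat.pow_le_pow_right (by omega)
            have h3 := sum_succ (k + 3)
            have h4 : ∑ i ∈ Finset.range (k + 3), (i + 1 + 1) =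
                ∑ i ∈ Finset.range (k + 3), (i + 1) + (k + 3) := by
              rw [Finset.sum_add_distrib]; simp
            rw [h4, h2a]
            have h5 : (k + 4) * (k + 3) ≥ 1 := by nlinarith
            have h6 : 2 * (∑ i ∈ Finset.range (k + 3), (i + 1) + (k + 3)) + 2 ≤
              2 * ((k + 4) * (k + 3)) := by rw [mul_add, h3]; nlinarith
            omega
        _ = (q - 1) * q ^ (2 * a - 1) := by ring
    exact Nat.le_of_mul_le_mul_left h1 hq1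
  · rintro ⟨h2, h6⟩
    apply h42
    have : (k + 4) * (k + 3) = 12 := by rw [← h2a, h6]
    have hk0 : k = 0 := by
      rcases Nat.eq_zero_or_pos k with h | h
      · exact h
      · nlinarith
    exact ⟨by omega, h2⟩
  · intro z hz hd
    obtain ⟨i, hi, h1⟩ := exists_of_dvd_prod (f := fun i => i + 1) hz hd
    have h2 := Nat.le_of_dvd (by omega) h1
    nlinarith
  · rintro ⟨-, h6⟩
    have : (k + 4) * (k + 3) = 6 := by rw [← h2a, h6]
    nlinarith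
  · intro z hz hd
    obtain ⟨i, hi, h1⟩ := exists_of_dvd_prod (f := fun i => i + 1) hz hd
    have h2 := Nat.le_of_dvd (by omega) h1
    nlinarith

/-! ### symplectic and odd dimensional orthogonal groups -/

theorem symp_bad {n q M g : ℕ} (hn : 3 ≤ n) (hq : 2 ≤ q) (hg : 1 ≤ g)
    (hM : g * M = ∏ i ∈ Finset.range n, (q ^ (2 * (i + 1)) - 1)) : Bad q (n ^ 2) M := by
  have hMle : M ≤ ∏ i ∈ Finset.range n, (q ^ (2 * (i + 1)) - 1) := by
    rw [← hM]; exact Nat.le_mul_of_pos_left _ hg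
  have hs : ∑ i ∈ Finset.range n, 2 * (i + 1) = n * (n + 1) := sum_two_mul n
  refine bad_of (s := n * (n + 1)) (F := ∏ i ∈ Finset.range n, (q ^ (2 * (i + 1)) - 1)) hq
    (by nlinarith) ⟨g, by rw [← hM]; ring⟩ (by nlinarith) ?_ (n ^ 2) (by nlinarith) ?_ dvd_rfl ?_ ?_ ?_
  · intro _
    exact hMle.trans ((prod_le_pow _ _ (fun i => 2 * (i + 1))).trans (by rw [hs]))
  · rintro ⟨-, h6⟩
    nlinarith
  · intro z hz hd
    obtain ⟨i, hi, h1⟩ := exists_of_dvd_prod (f := fun i => 2 * (i + 1)) hz hd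
    have h2 := Nat.le_of_dvd (by omega) h1
    nlinarith
  · rintro ⟨-, h6⟩
    nlinarith
  · intro z hz hd
    obtain ⟨i, hi, h1⟩ := exists_of_dvd_prod (f := fun i => 2 * (i + 1)) hz hd
    have h2 := Nat.le_of_dvd (by omega) h1
    nlinarith

/-! ### orthogonal groups of even dimension -/

theorem oplus_bad {n q M g : ℕ} (hn : 4 ≤ n) (hq : 2 ≤ q) (hg : 1 ≤ g)
    (hM : g * M = (q ^ n - 1) * ∏ i ∈ Finset.range (n - 1), (q ^ (2 * (i + 1)) - 1)) :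
    Bad q (n * (n - 1)) M := by
  obtain ⟨k, rfl⟩ : ∃ k, n = k + 4 := ⟨n - 4, by omega⟩
  have hk : k + 4 - 1 = k + 3 := by omega
  rw [hk] at hM ⊢
  have hMle : M ≤ (q ^ (k + 4) - 1) * ∏ i ∈ Finset.range (k + 3), (q ^ (2 * (i + 1)) - 1) := by
    rw [← hM]; exact Nat.le_mul_of_pos_left _ hg
  have hs : ∑ i ∈ Finset.range (k + 3), 2 * (i + 1) = (k + 3) * (k + 3 + 1) := sum_two_mul _
  refine bad_of (s := (k + 4) + (k + 3) * (k + 3 + 1))
    (F := (q ^ (k + 4) - 1) * ∏ i ∈ Finset.range (k + 3), (q ^ (2 * (i + 1)) - 1)) hq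
    (by nlinarith) ⟨g, by rw [← hM]; ring⟩ (by nlinarith) ?_ ((k + 4) * (k + 3)) (by nlinarith) ?_
    dvd_rfl ?_ ?_ ?_
  · intro _
    refine hMle.trans ?_
    have h0 := prod_le_pow q (k + 3) (fun i => 2 * (i + 1))
    rw [hs] at h0
    calc _ ≤ q ^ (k + 4) * q ^ ((k + 3) * (k + 3 + 1)) := Nat.mul_le_mul (Nat.sub_le _ _) h0
      _ = _ := by rw [← pow_add]
  · rintro ⟨-, h6⟩
    nlinarith
  · intro z hz hd
    rcases (hz.1.dvd_mul).1 hd with hd | hd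
    · have h2 := Nat.le_of_dvd (by omega) (hz.sub hd)
      nlinarith
    · obtain ⟨i, hi, h1⟩ := exists_of_dvd_prod (f := fun i => 2 * (i + 1)) hz hd
      have h2 := Nat.le_of_dvd (by omega) h1
      nlinarith
  · rintro ⟨-, h6⟩
    nlinarith
  · intro z hz hd
    rcases (hz.1.dvd_mul).1 hd with hd | hd
    · have h2 := Nat.le_of_dvd (by omega) (hz.sub hd)
      nlinarith
    · obtain ⟨i, hi, h1⟩ := exists_of_dvd_prod (f := fun i => 2 * (i + 1)) hz hd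
      have h2 := Nat.le_of_dvd (by omega) h1
      nlinarith

theorem ominus_bad {n q M g : ℕ} (hn : 4 ≤ n) (hq : 2 ≤ q) (hg : 1 ≤ g)
    (hM : g * M = (q ^ n + 1) * ∏ i ∈ Finset.range (n - 1), (q ^ (2 * (i + 1)) - 1)) :
    Bad q (n * (n - 1)) M := by
  obtain ⟨k, rfl⟩ : ∃ k, n = k + 4 := ⟨n - 4, by omega⟩
  have hk : k + 4 - 1 = k + 3 := by omega
  rw [hk] at hM ⊢
  have hMle : M ≤ (q ^ (k + 4) + 1) * ∏ i ∈ Finset.range (k + 3), (q ^ (2 * (i + 1)) - 1) := by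
    rw [← hM]; exact Nat.le_mul_of_pos_left _ hg
  have hs : ∑ i ∈ Finset.range (k + 3), 2 * (i + 1) = (k + 3) * (k + 3 + 1) := sum_two_mul _
  refine bad_of (s := (k + 5) + (k + 3) * (k + 3 + 1))
    (F := (q ^ (k + 4) + 1) * ∏ i ∈ Finset.range (k + 3), (q ^ (2 * (i + 1)) - 1)) hq
    (by nlinarith) ⟨g, by rw [← hM]; ring⟩ (by nlinarith) ?_ ((k + 4) * (k + 3)) (by nlinarith) ?_
    dvd_rfl ?_ ?_ ?_
  · intro _
    refine hMle.trans ?_
    have h0 := prod_le_pow q (k + 3) (fun i => 2 * (i + 1))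
    rw [hs] at h0
    have h1 : q ^ (k + 4) + 1 ≤ q ^ (k + 5) := by
      have h2 : 1 ≤ q ^ (k + 4) := Nat.one_le_pow _ _ (by omega)
      calc q ^ (k + 4) + 1 ≤ q ^ (k + 4) * 2 := by omega
        _ ≤ q ^ (k + 4) * q := Nat.mul_le_mul_left _ hq
        _ = q ^ (k + 5) := by ring
    calc _ ≤ q ^ (k + 5) * q ^ ((k + 3) * (k + 3 + 1)) := Nat.mul_le_mul h1 h0
      _ = _ := by rw [← pow_add]
  · rintro ⟨-, h6⟩
    nlinarith
  · intro z hz hd
    rcases (hz.1.dvd_mul).1 hd with hd | hd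
    · have h2 := Nat.le_of_dvd (by omega) (hz.add (by omega) hd).1
      nlinarith
    · obtain ⟨i, hi, h1⟩ := exists_of_dvd_prod (f := fun i => 2 * (i + 1)) hz hd
      have h2 := Nat.le_of_dvd (by omega) h1
      nlinarith
  · rintro ⟨-, h6⟩
    nlinarith
  · intro z hz hd
    rcases (hz.1.dvd_mul).1 hd with hd | hd
    · have h2 := Nat.le_of_dvd (by omega) (hz.add (by omega) hd).1
      nlinarith
    · obtain ⟨i, hi, h1⟩ := exists_of_dvd_prod (f := fun i => 2 * (i + 1)) hz hd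
      have h2 := Nat.le_of_dvd (by omega) h1
      nlinarith

/-! ### unitary groups -/

/-- `q ^ (i + 1) - (-1) ^ (i + 1)` -/
def uf (q i : ℕ) : ℕ := if i % 2 = 0 then q ^ (i + 1) + 1 else q ^ (i + 1) - 1

theorem prod_uf_le (q : ℕ) (hq : 2 ≤ q) (j : ℕ) :
    ∏ i ∈ Finset.range (2 * j + 1), uf q i ≤ (q + 1) * q ^ (2 * j * j + 3 * j) := by
  induction j with
  | zero => simp [uf]
  | succ j ih =>
    have h1 : 2 * (j + 1) + 1 = 2 * j + 1 + 1 + 1 := by ring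
    rw [h1, Finset.prod_range_succ, Finset.prod_range_succ]
    have h2 : uf q (2 * j + 1) = q ^ (2 * j + 2) - 1 := by
      unfold uf
      rw [if_neg (by omega)]
    have h3 : uf q (2 * j + 1 + 1) = q ^ (2 * j + 3) + 1 := by
      unfold uf
      rw [if_pos (by omega)]
    rw [h2, h3]
    have h4 : (q ^ (2 * j + 2) - 1) * (q ^ (2 * j + 3) + 1) ≤ q ^ (4 * j + 5) := by
      obtain ⟨R, hR⟩ : ∃ R, q ^ (2 * j + 2) = R + 1 :=
        ⟨q ^ (2 * j + 2) - 1, by have : 1 ≤ q ^ (2 * j + 2) := Nat.one_le_pow _ _ (by omega); omega⟩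
      have h5 : q ^ (2 * j + 3) = (R + 1) * q := by rw [← hR]; ring
      have h6 : q ^ (4 * j + 5) = (R + 1) * ((R + 1) * q) := by rw [← hR]; ring
      rw [h5, h6, hR, Nat.add_sub_cancel]
      nlinarith
    calc _ ≤ (q + 1) * q ^ (2 * j * j + 3 * j) *
          ((q ^ (2 * j + 2) - 1) * (q ^ (2 * j + 3) + 1)) := by
            rw [mul_assoc]; exact Nat.mul_le_mul_right _ ih
      _ ≤ (q + 1) * q ^ (2 * j * j + 3 * j) * q ^ (4 * j + 5) := Nat.mul_le_mul_left _ h4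
      _ = (q + 1) * q ^ (2 * (j + 1) * (j + 1) + 3 * (j + 1)) := by
          rw [mul_assoc, ← pow_add]; congr 2; ring

theorem prod_uf_le' (q : ℕ) (hq : 2 ≤ q) (n : ℕ) (hn : 1 ≤ n) :
    ∏ i ∈ Finset.range n, uf q i ≤ (q + 1) * q ^ (n * (n + 1) / 2 - 1) := by
  rcases Nat.even_or_odd' n with ⟨j, rfl | rfl⟩
  · obtain ⟨k, rfl⟩ : ∃ k, j = k + 1 := ⟨j - 1, by omega⟩
    have h1 : 2 * (k + 1) = 2 * k + 1 + 1 := by ring
    have h0 := prod_uf_le q hq k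
    have h2 : uf q (2 * k + 1) = q ^ (2 * k + 2) - 1 := by
      unfold uf
      rw [if_neg (by omega)]
    have h3 : 2 * (k + 1) * (2 * (k + 1) + 1) / 2 - 1 = (2 * k * k + 3 * k) + (2 * k + 2) := by
      have : 2 * (k + 1) * (2 * (k + 1) + 1) = 2 * ((2 * k * k + 3 * k) + (2 * k + 2) + 1) := by ring
      rw [this, Nat.mul_div_cancel_left _ (by norm_num)]
      omega
    rw [h3, h1, Finset.prod_range_succ, h2]
    calc _ ≤ (q + 1) * q ^ (2 * k * k + 3 * k) * q ^ (2 * k + 2) :=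
          Nat.mul_le_mul h0 (Nat.sub_le _ _)
      _ = _ := by rw [mul_assoc, ← pow_add]
  · have h3 : (2 * j + 1) * (2 * j + 1 + 1) / 2 - 1 = 2 * j * j + 3 * j := by
      have : (2 * j + 1) * (2 * j + 1 + 1) = 2 * (2 * j * j + 3 * j + 1) := by ring
      rw [this, Nat.mul_div_cancel_left _ (by norm_num)]
      omega
    rw [h3]
    exact prod_uf_le q hq j

theorem exists_of_dvd_uf {q e z n : ℕ} (hq : 1 ≤ q) (hz : Pr q e z)
    (h : z ∣ ∏ i ∈ Finset.range n, uf q i) :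
    ∃ i < n, (i % 2 = 0 ∧ e ∣ 2 * (i + 1) ∧ ¬ e ∣ i + 1) ∨ (i % 2 = 1 ∧ e ∣ i + 1) := by
  rw [Prime.dvd_finsetProd_iff hz.1.prime] at h
  obtain ⟨i, hi, h1⟩ := h
  refine ⟨i, Finset.mem_range.1 hi, ?_⟩
  unfold uf at h1
  by_cases h2 : i % 2 = 0
  · rw [if_pos h2] at h1
    left
    exact ⟨h2, hz.add hq h1⟩
  · rw [if_neg h2] at h1
    right
    exact ⟨by omega, hz.sub h1⟩

theorem unit_le {n q M : ℕ} (hn : 3 ≤ n) (hq : 2 ≤ q) {g : ℕ} (hg : 1 ≤ g)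
    (hM : g * (q + 1) * M = ∏ i ∈ Finset.range n, uf q i) : M ≤ q ^ (n * (n - 1) - 1) := by
  have h1 : (q + 1) * M ≤ (q + 1) * q ^ (n * (n + 1) / 2 - 1) := by
    calc (q + 1) * M = 1 * ((q + 1) * M) := by ring
      _ ≤ g * ((q + 1) * M) := Nat.mul_le_mul_right _ hg
      _ = g * (q + 1) * M := by ring
      _ = ∏ i ∈ Finset.range n, uf q i := hM
      _ ≤ _ := prod_uf_le' q hq n (by omega)
  refine (Nat.le_of_mul_le_mul_left h1 (by omega)).trans (Nat.pow_le_pow_right (by omega) ?_)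
  obtain ⟨k, rfl⟩ : ∃ k, n = k + 3 := ⟨n - 3, by omega⟩
  have h2 : k + 3 - 1 = k + 2 := by omega
  rw [h2]
  have h3 : (k + 3) * (k + 3 + 1) / 2 ≤ (k + 3) * (k + 2) := by
    apply Nat.div_le_of_le_mul
    nlinarith
  omega

theorem unit_bad {n q M : ℕ} (hn : 4 ≤ n) (hq : 2 ≤ q) {g : ℕ} (hg : 1 ≤ g)
    (hM : g * (q + 1) * M = ∏ i ∈ Finset.range n, uf q i) :
    Bad q (n * (n - 1) / 2) M := by
  set a := n * (n - 1) / 2 with ha
  have h2a : 2 * a = n * (n - 1) := two_tri n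
  obtain ⟨k, rfl⟩ : ∃ k, n = k + 4 := ⟨n - 4, by omega⟩
  have hk : k + 4 - 1 = k + 3 := by omega
  have hle := unit_le (by omega) hq hg hM
  rw [hk] at h2a hle
  rw [← h2a] at hle
  have hMF : M ∣ ∏ i ∈ Finset.range (k + 4), uf q i := ⟨g * (q + 1), by rw [← hM]; ring⟩
  have ha2 : 2 ≤ a := by nlinarith
  have h6 : ¬ (q = 2 ∧ 2 * a = 6) := by
    rintro ⟨-, h6⟩
    have : (k + 4) * (k + 3) = 6 := by rw [← h2a, h6]
    nlinarith
  have hlast : ∀ z, Pr q (2 * a) z → ¬ z ∣ ∏ i ∈ Finset.range (k + 4), uf q i := by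
    intro z hz hd
    obtain ⟨i, hi, ⟨-, h1, -⟩ | ⟨-, h1⟩⟩ := exists_of_dvd_uf (by omega) hz hd
    · have h2 := Nat.le_of_dvd (by omega) h1
      nlinarith
    · have h2 := Nat.le_of_dvd (by omega) h1
      nlinarith
  rcases Nat.lt_or_ge k 2 with hk2 | hk2
  · interval_cases k
    · -- n = 4, a = 6, e = 3
      have ha6 : a = 6 := by omega
      refine bad_of (s := 2 * a - 1) (F := ∏ i ∈ Finset.range 4, uf q i) hq ha2 hMF (by omega)
        (fun _ => hle) 3 le_rfl (by omega) (by rw [ha6]; norm_num) ?_ h6 hlast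
      intro z hz hd
      obtain ⟨i, hi, ⟨h0, h1, h2⟩ | ⟨h0, h1⟩⟩ := exists_of_dvd_uf (by omega) hz hd
      · interval_cases i <;> omega
      · interval_cases i <;> omega
    · have ha10 : a = 10 := by omega
      refine bad_of (s := 2 * a - 1) (F := ∏ i ∈ Finset.range 5, uf q i) hq ha2 hMF (by omega)
        (fun _ => hle) 5 (by norm_num) (by omega) (by rw [ha10]; norm_num) ?_ h6 hlast
      intro z hz hd
      obtain ⟨i, hi, ⟨h0, h1, h2⟩ | ⟨h0, h1⟩⟩ := exists_of_dvd_uf (by omega) hz hd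
      · interval_cases i <;> omega
      · interval_cases i <;> omega
  · refine bad_of (s := 2 * a - 1) (F := ∏ i ∈ Finset.range (k + 4), uf q i) hq ha2 hMF (by omega)
      (fun _ => hle) a (by nlinarith) ?_ dvd_rfl ?_ h6 hlast
    · rintro ⟨-, h6⟩
      have : (k + 4) * (k + 3) = 12 := by rw [← h2a, h6]
      nlinarith
    · intro z hz hd
      obtain ⟨i, hi, ⟨-, h1, -⟩ | ⟨-, h1⟩⟩ := exists_of_dvd_uf (by omega) hz hd
      · have h2 := Nat.le_of_dvd (by omega) h1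
        nlinarith
      · have h2 := Nat.le_of_dvd (by omega) h1
        nlinarith

/-! ### exceptional groups -/

/-- factors `q ^ d - 1` and `q ^ d + 1` -/
def pf (q : ℕ) (l₁ l₂ : List ℕ) : ℕ := (l₁.map fun d => q ^ d - 1).prod * (l₂.map fun d => q ^ d + 1).prod

theorem not_dvd_pf {q e z : ℕ} (hq : 1 ≤ q) (hz : Pr q e z) {l₁ l₂ : List ℕ}
    (h₁ : ∀ d ∈ l₁, ¬ e ∣ d) (h₂ : ∀ d ∈ l₂, ¬ e ∣ 2 * d ∨ e ∣ d) : ¬ z ∣ pf q l₁ l₂ := by
  intro h
  unfold pf at h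
  rcases (hz.1.dvd_mul).1 h with h | h
  · rw [Prime.dvd_prod_iff hz.1.prime] at h
    obtain ⟨x, hx, hd⟩ := h
    obtain ⟨d, hd', rfl⟩ := List.mem_map.1 hx
    exact h₁ d hd' (hz.sub hd)
  · rw [Prime.dvd_prod_iff hz.1.prime] at h
    obtain ⟨x, hx, hd⟩ := h
    obtain ⟨d, hd', rfl⟩ := List.mem_map.1 hx
    have h3 := hz.add hq hd
    rcases h₂ d hd' with h4 | h4
    · exact h4 h3.1
    · exact h3.2 h4

theorem pf_le {q : ℕ} (hq : 2 ≤ q) (l₁ l₂ : List ℕ) : pf q l₁ l₂ ≤ q ^ (l₁.sum + (l₂.sum + l₂.length)) := by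
  unfold pf
  rw [pow_add]
  apply Nat.mul_le_mul
  · induction l₁ with
    | nil => simp
    | cons d l ih =>
      rw [List.map_cons, List.prod_cons, List.sum_cons, pow_add]
      exact Nat.mul_le_mul (Nat.sub_le _ _) ih
  · induction l₂ with
    | nil => simp
    | cons d l ih =>
      rw [List.map_cons, List.prod_cons, List.sum_cons, List.length_cons,
        show d + l.sum + (l.length + 1) = (d + 1) + (l.sum + l.length) by ring, pow_add]
      apply Nat.mul_le_mul _ ih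
      have h2 : 1 ≤ q ^ d := Nat.one_le_pow _ _ (by omega)
      calc q ^ d + 1 ≤ q ^ d * 2 := by omega
        _ ≤ q ^ d * q := Nat.mul_le_mul_left _ hq
        _ = q ^ (d + 1) := by ring

/-- criterion for the exceptional families -/
theorem bad_pf {q a M g : ℕ} (hq : 2 ≤ q) (hg : 1 ≤ g) (l₁ l₂ : List ℕ) (hM : g * M = pf q l₁ l₂)
    (e : ℕ) (h : (2 ≤ a ∧ 3 ≤ e ∧ e ≠ 6 ∧ 2 * a ≠ 6 ∧ e ∣ a ∧
      l₁.sum + (l₂.sum + l₂.length) + 1 ≤ 2 * a ∧ (∀ d ∈ l₁, ¬ e ∣ d) ∧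
      (∀ d ∈ l₂, ¬ e ∣ 2 * d ∨ e ∣ d) ∧ (∀ d ∈ l₁, ¬ (2 * a) ∣ d) ∧
      (∀ d ∈ l₂, ¬ (2 * a) ∣ 2 * d ∨ (2 * a) ∣ d))) : Bad q a M := by
  obtain ⟨h1, h2, h3, h4, h5, h6, h7, h8, h9, h10⟩ := h
  have hle : M ≤ pf q l₁ l₂ := by rw [← hM]; exact Nat.le_mul_of_pos_left _ hg
  exact bad_of (s := l₁.sum + (l₂.sum + l₂.length)) (F := pf q l₁ l₂) hq h1
    ⟨g, by rw [← hM]; ring⟩ h6 (fun _ => hle.trans (pf_le hq _ _)) e h2 (fun h => h3 h.2) h5
    (fun z hz => not_dvd_pf (by omega) hz h7 h8) (fun h => h4 h.2)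
    (fun z hz => not_dvd_pf (by omega) hz h9 h10)

theorem f4_bad {q M : ℕ} (hq : 2 ≤ q)
    (hM : M = (q ^ 2 - 1) * (q ^ 6 - 1) * (q ^ 8 - 1) * (q ^ 12 - 1)) : Bad q 24 M :=
  bad_pf (g := 1) hq le_rfl [2, 6, 8, 12] [] (by rw [hM]; simp [pf]; ring) 24 (by decide)

theorem e6_bad {q M g : ℕ} (hq : 2 ≤ q) (hg : 1 ≤ g) (hM : g * M = (q ^ 2 - 1) * (q ^ 5 - 1) *
    (q ^ 6 - 1) * (q ^ 8 - 1) * (q ^ 9 - 1) * (q ^ 12 - 1)) : Bad q 36 M :=
  bad_pf (g := g) hq hg [2, 5, 6, 8, 9, 12] [] (by rw [hM]; simp [pf]; ring) 36 (by decide)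

theorem e7_bad {q M g : ℕ} (hq : 2 ≤ q) (hg : 1 ≤ g) (hM : g * M = (q ^ 2 - 1) * (q ^ 6 - 1) *
    (q ^ 8 - 1) * (q ^ 10 - 1) * (q ^ 12 - 1) * (q ^ 14 - 1) * (q ^ 18 - 1)) : Bad q 63 M :=
  bad_pf (g := g) hq hg [2, 6, 8, 10, 12, 14, 18] [] (by rw [hM]; simp [pf]; ring) 63 (by decide)

theorem e8_bad {q M : ℕ} (hq : 2 ≤ q) (hM : M = (q ^ 2 - 1) * (q ^ 8 - 1) *
    (q ^ 12 - 1) * (q ^ 14 - 1) * (q ^ 18 - 1) * (q ^ 20 - 1) * (q ^ 24 - 1) * (q ^ 30 - 1)) :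
    Bad q 120 M :=
  bad_pf (g := 1) hq le_rfl [2, 8, 12, 14, 18, 20, 24, 30] [] (by rw [hM]; simp [pf]; ring) 120
    (by decide)

theorem te6_bad {q M g : ℕ} (hq : 2 ≤ q) (hg : 1 ≤ g) (hM : g * M = (q ^ 2 - 1) * (q ^ 5 + 1) *
    (q ^ 6 - 1) * (q ^ 8 - 1) * (q ^ 9 + 1) * (q ^ 12 - 1)) : Bad q 36 M :=
  bad_pf (g := g) hq hg [2, 6, 8, 12] [5, 9] (by rw [hM]; simp [pf]; ring) 36 (by decide)

theorem tf4_bad {q M : ℕ} (hq : 2 ≤ q) (hM : M = (q - 1) * (q ^ 3 + 1) * (q ^ 4 - 1) *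
    (q ^ 6 + 1)) : Bad q 12 M :=
  bad_pf (g := 1) hq le_rfl [1, 4] [3, 6] (by rw [hM]; simp [pf]; ring) 3 (by decide)

theorem td4_bad {q M : ℕ} (hq : 2 ≤ q) (hM : M = (q ^ 2 - 1) * (q ^ 6 - 1) *
    (q ^ 8 + q ^ 4 + 1)) : Bad q 12 M := by
  have h0 : 1 ≤ q ^ 4 := Nat.one_le_pow _ _ (by omega)
  have h1 : (q ^ 4 - 1) * (q ^ 8 + q ^ 4 + 1) = q ^ 12 - 1 := by
    obtain ⟨R, hR⟩ : ∃ R, q ^ 4 = R + 1 := ⟨q ^ 4 - 1, by omega⟩
    have h8 : q ^ 8 = (R + 1) * (R + 1) := by rw [← hR]; ring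
    have h12 : q ^ 12 = (R + 1) * (R + 1) * (R + 1) := by rw [← hR]; ring
    rw [h8, h12, hR, Nat.add_sub_cancel]
    apply Nat.eq_sub_of_add_eq
    ring
  refine bad_of (s := 17) (F := M) (a := 12) (M := M) hq (by norm_num) dvd_rfl (by norm_num) ?_ 4
    (by norm_num) (by omega) (by norm_num) ?_ (by omega) ?_
  · intro h3
    rw [hM]
    have h2 : q ^ 8 + q ^ 4 + 1 ≤ q ^ 9 := by
      have h4 : q ^ 4 ≤ q ^ 8 := Nat.pow_le_pow_right (by omega) (by norm_num)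
      have h5 : 3 * q ^ 8 ≤ q * q ^ 8 := Nat.mul_le_mul_right _ h3
      have h6 : q * q ^ 8 = q ^ 9 := by ring
      omega
    calc (q ^ 2 - 1) * (q ^ 6 - 1) * (q ^ 8 + q ^ 4 + 1) ≤ q ^ 2 * q ^ 6 * q ^ 9 :=
          Nat.mul_le_mul (Nat.mul_le_mul (Nat.sub_le _ _) (Nat.sub_le _ _)) h2
      _ = q ^ 17 := by ring
  · intro z hz hd
    rw [hM] at hd
    rcases (hz.1.dvd_mul).1 hd with hd | hd
    · rcases (hz.1.dvd_mul).1 hd with hd | hd
      · exact absurd (hz.sub hd) (by norm_num)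
      · exact absurd (hz.sub hd) (by norm_num)
    · -- `z ∣ q ^ 4 - 1` and `z ∣ q ^ 8 + q ^ 4 + 1`, so `z = 3`
      have h4 : z ∣ q ^ 4 - 1 := hz.dvd_sub dvd_rfl
      have h5 : z ∣ 3 := by
        obtain ⟨R, hR⟩ : ∃ R, q ^ 4 = R + 1 := ⟨q ^ 4 - 1, by omega⟩
        have h8 : q ^ 8 = (R + 1) * (R + 1) := by rw [← hR]; ring
        rw [h8, hR] at hd
        rw [hR, Nat.add_sub_cancel] at h4
        have h6 : (R + 1) * (R + 1) + (R + 1) + 1 = R * (R + 3) + 3 := by ring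
        rw [h6] at hd
        exact (Nat.dvd_add_right (h4.mul_right _)).1 hd
      have h6 : z = 3 := (Nat.prime_dvd_prime_iff_eq hz.1 Nat.prime_three).1 h5
      subst h6
      -- `3 ∣ q ^ 2 - 1`
      have h7 : ¬ 3 ∣ q := by
        intro h8
        have h9 : 3 ∣ q ^ 4 := dvd_pow h8 (by norm_num)
        omega
      have h8 : 3 ∣ q ^ 2 - 1 := by
        have h9 : q % 3 = 1 ∨ q % 3 = 2 := by omega
        have h10 : q ^ 2 % 3 = 1 := by
          rw [Nat.pow_mod]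
          rcases h9 with h9 | h9 <;> rw [h9]
        have : 1 ≤ q ^ 2 := Nat.one_le_pow _ _ (by omega)
        omega
      exact absurd (hz.sub h8) (by norm_num)
  · intro z hz hd
    rw [hM] at hd
    rcases (hz.1.dvd_mul).1 hd with hd | hd
    · rcases (hz.1.dvd_mul).1 hd with hd | hd
      · exact absurd (hz.sub hd) (by norm_num)
      · exact absurd (hz.sub hd) (by norm_num)
    · have h4 : z ∣ q ^ 12 - 1 := by rw [← h1]; exact hd.mul_left _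
      exact absurd (hz.sub h4) (by norm_num)

end Cfsg.Agent.H398.CC.Arith
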