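import Mathlib

/-!
# A kernel-checked search for solutions of `N = m d (d + 1) c²`
-/

set_option autoImplicit false

namespace Cfsg.Agent.H398.CC.Cert

/-- product of prime powers -/
def prodl : List (ℕ × ℕ) → ℕ
  | [] => 1
  | x :: l => x.1 ^ x.2 * prodl l

/-- the exact odd divisors -/
def mL : List (ℕ × ℕ) → List ℕ
  | [] => [1]
  | x :: l => (mL l).flatMap fun m => if Nat.beq x.1 2 then [m] else [m, m * x.1 ^ x.2]

/-- the numbers whose square divides the product -/
def cL : List (ℕ × ℕ) → List ℕ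
  | [] => [1]
  | x :: l => (cL l).flatMap fun c => (List.range (x.2 / 2 + 1)).map fun i => c * x.1 ^ i

/-- distinct primes -/
def Good (l : List (ℕ × ℕ)) : Prop :=
  (∀ x ∈ l, x.1.Prime) ∧ l.Pairwise fun x y => x.1 ≠ y.1

theorem not_dvd_prodl {p : ℕ} (hp : p.Prime) : ∀ {l : List (ℕ × ℕ)}, (∀ x ∈ l, x.1.Prime) →
    (∀ x ∈ l, p ≠ x.1) → ¬ p ∣ prodl l
  | [], _, _ => by
    intro h
    exact hp.one_lt.ne' (Nat.dvd_one.1 h)
  | x :: l, h1, h2 => by
    intro h
    rcases (hp.dvd_mul).1 (h : p ∣ x.1 ^ x.2 * prodl l) with h3 | h3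
    · exact h2 x List.mem_cons_self
        ((Nat.prime_dvd_prime_iff_eq hp (h1 x List.mem_cons_self)).1 (hp.dvd_of_dvd_pow h3))
    · exact not_dvd_prodl hp (fun y hy => h1 y (List.mem_cons_of_mem _ hy))
        (fun y hy => h2 y (List.mem_cons_of_mem _ hy)) h3

theorem prodl_pos : ∀ {l : List (ℕ × ℕ)}, (∀ x ∈ l, x.1.Prime) → 0 < prodl l
  | [], _ => Nat.one_pos
  | x :: l, h => Nat.mul_pos (pow_pos (h x List.mem_cons_self).pos _)
      (prodl_pos fun y hy => h y (List.mem_cons_of_mem _ hy))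

theorem mem_mL : ∀ {l : List (ℕ × ℕ)}, Good l → ∀ {m n : ℕ}, Odd m → m * n = prodl l →
    Nat.Coprime m n → m ∈ mL l
  | [], _, m, n, _, h, _ => by
    have : m = 1 := Nat.eq_one_of_mul_eq_one_right h
    rw [this]; exact List.mem_cons_self
  | x :: l, hl, m, n, hm, h, hc => by
    obtain ⟨h1, h2⟩ := hl
    have hx := h1 x List.mem_cons_self
    have hl' : Good l := ⟨fun y hy => h1 y (List.mem_cons_of_mem _ hy), (List.pairwise_cons.1 h2).2⟩
    have hnd : ¬ x.1 ∣ prodl l := not_dvd_prodl hx hl'.1 (List.pairwise_cons.1 h2).1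
    have h' : m * n = x.1 ^ x.2 * prodl l := h
    unfold mL
    rw [List.mem_flatMap]
    by_cases hxm : x.1 ∣ m
    · -- `x.1 ^ x.2 ∣ m`
      have hx2 : ¬ (Nat.beq x.1 2 = true) := by
        rw [Nat.beq_eq]
        intro h3
        rw [h3] at hxm
        exact hm.not_two_dvd_nat hxm
      have hxn : Nat.Coprime (x.1 ^ x.2) n := by
        apply Nat.Coprime.pow_left
        rw [hx.coprime_iff_not_dvd]
        intro h3
        have := Nat.dvd_gcd hxm h3
        rw [hc] at this
        exact hx.one_lt.ne' (Nat.dvd_one.1 this)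
      obtain ⟨m', hm'⟩ : x.1 ^ x.2 ∣ m :=
        hxn.dvd_of_dvd_mul_right (by rw [h']; exact Dvd.intro _ rfl)
      have h3 : m' * n = prodl l := by
        apply Nat.eq_of_mul_eq_mul_left (pow_pos hx.pos x.2)
        rw [← h', hm']; ring
      refine ⟨m', mem_mL hl' ?_ h3 (Nat.Coprime.coprime_dvd_left ⟨x.1 ^ x.2, by rw [hm']; ring⟩ hc), ?_⟩
      · rw [hm'] at hm
        exact (Nat.odd_mul.1 hm).2
      · rw [if_neg hx2, hm']
        simp [mul_comm]
    · -- `m` is prime to `x.1`
      have hxm' : Nat.Coprime (x.1 ^ x.2) m := by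
        apply Nat.Coprime.pow_left
        rwa [hx.coprime_iff_not_dvd]
      obtain ⟨n', hn'⟩ : x.1 ^ x.2 ∣ n :=
        hxm'.dvd_of_dvd_mul_left (by rw [h']; exact Dvd.intro _ rfl)
      have h3 : m * n' = prodl l := by
        apply Nat.eq_of_mul_eq_mul_left (pow_pos hx.pos x.2)
        rw [← h', hn']; ring
      refine ⟨m, mem_mL hl' hm h3 (Nat.Coprime.coprime_dvd_right ⟨x.1 ^ x.2, by rw [hn']; ring⟩ hc), ?_⟩
      split_ifs <;> simp

theorem mem_cL : ∀ {l : List (ℕ × ℕ)}, Good l → ∀ {c : ℕ}, c ^ 2 ∣ prodl l → c ∈ cL l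
  | [], _, c, h => by
    have h1 : c ^ 2 = 1 := Nat.dvd_one.1 h
    have : c = 1 := (Nat.pow_eq_one.1 h1).resolve_right two_ne_zero
    rw [this]; exact List.mem_cons_self
  | x :: l, hl, c, h => by
    obtain ⟨h1, h2⟩ := hl
    have hx := h1 x List.mem_cons_self
    have hl' : Good l := ⟨fun y hy => h1 y (List.mem_cons_of_mem _ hy), (List.pairwise_cons.1 h2).2⟩
    have hnd : ¬ x.1 ∣ prodl l := not_dvd_prodl hx hl'.1 (List.pairwise_cons.1 h2).1
    have h' : c ^ 2 ∣ x.1 ^ x.2 * prodl l := h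
    have hc0 : c ≠ 0 := by
      rintro rfl
      rw [zero_pow two_ne_zero, zero_dvd_iff] at h'
      exact (Nat.mul_pos (pow_pos hx.pos x.2) (prodl_pos hl'.1)).ne' h'
    obtain ⟨i, c', hc', rfl⟩ := Nat.exists_eq_pow_mul_and_not_dvd hc0 x.1 hx.ne_one
    unfold cL
    rw [List.mem_flatMap]
    have hcop : Nat.Coprime (x.1 ^ x.2) (c' ^ 2) := by
      apply Nat.Coprime.pow
      rwa [hx.coprime_iff_not_dvd]
    refine ⟨c', mem_cL hl' ?_, ?_⟩
    · have h3 : c' ^ 2 ∣ x.1 ^ x.2 * prodl l := dvd_trans ⟨(x.1 ^ i) ^ 2, by ring⟩ h'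
      exact hcop.symm.dvd_of_dvd_mul_left h3
    · rw [List.mem_map]
      refine ⟨i, ?_, by ring⟩
      rw [List.mem_range]
      have h3 : x.1 ^ (2 * i) ∣ x.1 ^ x.2 * prodl l := dvd_trans ⟨c' ^ 2, by ring⟩ h'
      have h4 : Nat.Coprime (x.1 ^ (2 * i)) (prodl l) := by
        apply Nat.Coprime.pow_left
        rwa [hx.coprime_iff_not_dvd]
      have h5 := h4.dvd_of_dvd_mul_right h3
      have h6 := (Nat.pow_dvd_pow_iff_le_right hx.one_lt).1 h5
      omega

/-- moduli with the bit masks of their squares -/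
def masks : List (ℕ × ℕ) :=
  [(63, 288872697407275667), (11, 571), (37, 96068509339), (43, 3678700564051), (53, 5310023542746835),
   (61, 1662926210933060155), (67, 61808106872519771731), (73, 9059857384996697084767),
   (64, 144680414395695635), (65, 20863489977805260307), (79, 89932533647391829339959),
   (83, 2911111237809585785085595), (89, 526807005835216593886842679),
   (97, 152076272278209298711361952607), (101, 1550432784880709368503235994227),
   (103, 1760368345969468176824550810519), (107, 50079290986288516948354744811035),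
   (109, 473022961816146413042658758988475), (113, 8586949319576899938239170417650583),
   (127, 30790515292689894969866990722818747159), (131, 736595995152387833549853625256200223419),
   (137, 144045494737659012533968429665233398647703), (139, 264983527547230301571683161851591864167155),
   (149, 441852139177177952668163358831104772057793267),
   (151, 425021430996567349671854096638566139059703607)]

/-- certainly not a square -/
def nsq (x : ℕ) : Bool := masks.any fun p => !(Nat.testBit p.2 (x % p.1))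

theorem masks_ok : (masks.all fun p => Nat.blt 0 p.1 &&
    (List.range p.1).all fun r => Nat.testBit p.2 (r * r % p.1)) = true := by
  decide +kernel

theorem not_sq {x : ℕ} (h : nsq x = true) (y : ℕ) : x ≠ y * y := by
  rintro rfl
  unfold nsq at h
  rw [List.any_eq_true] at h
  obtain ⟨p, hp, h1⟩ := h
  have h2 := masks_ok
  rw [List.all_eq_true] at h2
  have h3 := h2 p hp
  rw [Bool.and_eq_true, Nat.blt_eq, List.all_eq_true] at h3
  have h4 := h3.2 (y % p.1) (List.mem_range.2 (Nat.mod_lt _ h3.1))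
  rw [← Nat.mul_mod] at h4
  rw [h4] at h1
  exact absurd h1 (by decide)

/-- the pairs `(m, c)` passing the tests -/
def sols (l : List (ℕ × ℕ)) (N : ℕ) : List (ℕ × ℕ) :=
  (((mL l).filter fun m => Nat.ble 3 m && Nat.beq ((N / (2 * m)) % m) 1).flatMap fun m =>
    ((cL l).filter fun c => Nat.beq (N % (m * (c * c))) 0 &&
      Nat.beq ((N / (m * (c * c))) % m) (2 % m) && Nat.ble 6 (N / (m * (c * c))) &&
      !(nsq (4 * (N / (m * (c * c))) + 1))).map fun c => (m, c))

theorem mem_sols {l : List (ℕ × ℕ)} (hl : Good l) {N : ℕ} (hN : prodl l = N) {m c d n : ℕ}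
    (hm : Odd m) (hm3 : 3 ≤ m) (hmc : N = m * (d * (d + 1)) * c ^ 2) (hd : 2 ≤ d) (hc : 0 < c)
    (hmod : d ≡ 1 [MOD m] ∨ d + 2 ≡ 0 [MOD m]) (hn : N = 2 * m * n) (hn1 : n ≡ 1 [MOD m]) :
    (m, c) ∈ sols l N := by
  have hm0 : 0 < m := by omega
  have hcop : Nat.Coprime m (2 * n) := by
    apply Nat.Coprime.mul_right hm.coprime_two_right
    have := hn1.gcd_eq
    rw [Nat.gcd_one_left] at this
    rw [Nat.Coprime, Nat.gcd_comm]; exact this
  unfold sols
  rw [List.mem_flatMap]
  refine ⟨m, ?_, ?_⟩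
  · rw [List.mem_filter]
    refine ⟨mem_mL hl hm (n := 2 * n) (by rw [hN, hn]; ring) hcop, ?_⟩
    rw [Bool.and_eq_true, Nat.ble_eq, Nat.beq_eq]
    refine ⟨hm3, ?_⟩
    have h1 : N / (2 * m) = n := by
      rw [hn]; exact Nat.mul_div_cancel_left _ (by omega)
    rw [h1]
    have h2 : n % m = 1 % m := hn1
    rw [h2, Nat.mod_eq_of_lt (by omega)]
  · rw [List.mem_map]
    refine ⟨c, ?_, rfl⟩
    rw [List.mem_filter]
    have h1 : N = m * (c * c) * (d * (d + 1)) := by rw [hmc]; ring
    have h2 : N / (m * (c * c)) = d * (d + 1) := by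
      conv_lhs => rw [h1]
      exact Nat.mul_div_cancel_left _ (Nat.mul_pos hm0 (Nat.mul_pos hc hc))
    refine ⟨mem_cL hl (by rw [hN, hmc]; exact Dvd.intro_left _ rfl), ?_⟩
    rw [h2, Bool.and_eq_true, Bool.and_eq_true, Bool.and_eq_true, Nat.beq_eq, Nat.beq_eq,
      Nat.ble_eq]
    refine ⟨⟨⟨?_, ?_⟩, Nat.mul_le_mul hd (by omega : 3 ≤ d + 1)⟩, ?_⟩
    · rw [h1]; exact Nat.mul_mod_right _ _
    · have h3 : d * (d + 1) ≡ 2 [MOD m] := by
        rcases hmod with h4 | h4
        · exact h4.mul (h4.add_right 1)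
        · have h5 : d * (d + 1) + 2 * (d + 2) ≡ 2 + 2 * (d + 2) [MOD m] := by
            have h6 : d * (d + 1) + 2 * (d + 2) = (d + 2) * (d + 2) - d + d * 0 := by
              rw [mul_zero, add_zero]
              apply Nat.eq_sub_of_add_eq
              ring
            have h7 : d * (d + 1) + 2 * (d + 2) + d = (d + 2) * (d + 2) := by ring
            have h8 : (d * (d + 1) + 2 * (d + 2)) + d ≡ (2 + 2 * (d + 2)) + d [MOD m] := by
              rw [h7]
              have h9 : (2 + 2 * (d + 2)) + d = 3 * (d + 2) := by ring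
              rw [h9]
              exact (Nat.ModEq.mul h4 h4).trans (by simpa using (Nat.ModEq.mul_left 3 h4).symm)
            exact Nat.ModEq.add_right_cancel' d h8
          exact Nat.ModEq.add_right_cancel' _ h5
      exact h3
    · rw [Bool.not_eq_true', Bool.eq_false_iff]
      intro h3
      exact not_sq h3 (2 * d + 1) (by ring)

end Cfsg.Agent.H398.CC.Cert
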