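import Mathlib

/-!
# Abelian subgroups of odd order containing the centralizers of their nontrivial elements,
with normalizer of twice their order

`N(P)` is then a generalized dihedral group: every element of `N(P) \ P` is an involution
inverting `P`, and these involutions form a single conjugacy class of `N(P)`.
-/

set_option autoImplicit false

namespace Cfsg.Agent.H398.CC

open Subgroup

variable {G : Type*} [Group G]

/-- A nontrivial abelian subgroup of odd order, containing the centralizers of its nontrivial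
elements, a TI subgroup, whose normalizer has twice its order. -/
structure IsDCC (P : Subgroup G) : Prop where
  comm : ∀ x ∈ P, ∀ y ∈ P, x * y = y * x
  cent : ∀ y ∈ P, y ≠ 1 → ∀ x : G, x * y = y * x → x ∈ P
  conj : ∀ y ∈ P, y ≠ 1 → ∀ x : G, x * y * x⁻¹ ∈ P → x ∈ normalizer (P : Set G)
  odd : Odd (Nat.card P)
  one_lt : 1 < Nat.card P
  cardN : Nat.card (normalizer (P : Set G)) = 2 * Nat.card P

namespace IsDCC

variable {P : Subgroup G} (h : IsDCC P)

include h

theorem card_pos : 0 < Nat.card P := lt_trans Nat.zero_lt_one h.one_lt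

theorem finite : Finite P := Nat.finite_of_card_ne_zero h.card_pos.ne'

theorem exists_ne : ∃ y ∈ P, y ≠ 1 := by
  have := h.finite
  have := Finite.one_lt_card_iff_nontrivial.1 h.one_lt
  obtain ⟨y, hy⟩ := _root_.exists_ne (1 : P)
  exact ⟨y, y.2, fun h1 => hy (Subtype.ext h1)⟩

/-- odd order: no element of `P` has order two -/
theorem sq_ne_one_of_mem {y : G} (hy : y ∈ P) (hsq : y ^ 2 = 1) : y = 1 := by
  have hfin := h.finite
  have h1 : orderOf y ∣ Nat.card P := by
    have := orderOf_dvd_natCard (⟨y, hy⟩ : P)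
    rwa [Subgroup.orderOf_mk] at this
  have h2 : orderOf y ∣ 2 := orderOf_dvd_of_pow_eq_one hsq
  have h3 : Nat.Coprime (Nat.card P) 2 := h.odd.coprime_two_right
  rw [← orderOf_eq_one_iff]
  exact Nat.dvd_one.1 (h3 ▸ Nat.dvd_gcd h1 h2)

/-- square roots in `P` -/
theorem exists_sq_eq {y : G} (hy : y ∈ P) : ∃ w ∈ P, w ^ 2 = y := by
  have hfin := h.finite
  have h1 : y ^ Nat.card P = 1 := by
    have := pow_card_eq_one' (x := (⟨y, hy⟩ : P))
    exact congrArg Subtype.val this
  obtain ⟨k, hk⟩ := h.odd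
  refine ⟨y ^ (k + 1), P.pow_mem hy _, ?_⟩
  rw [← pow_mul, show (k + 1) * 2 = Nat.card P + 1 by omega, pow_add, h1, pow_one, one_mul]

theorem index_eq_two : (P.subgroupOf (normalizer (P : Set G))).index = 2 := by
  have hfin : Finite (normalizer (P : Set G)) :=
    Nat.finite_of_card_ne_zero (by rw [h.cardN]; exact mul_ne_zero two_ne_zero h.card_pos.ne')
  have h1 := (P.subgroupOf (normalizer (P : Set G))).card_mul_index
  rw [h.cardN] at h1
  have h2 : Nat.card (P.subgroupOf (normalizer (P : Set G))) = Nat.card P :=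
    Nat.card_congr (subgroupOfEquivOfLe le_normalizer).toEquiv
  rw [h2, mul_comm 2 (Nat.card P)] at h1
  exact Nat.eq_of_mul_eq_mul_left h.card_pos h1

theorem mul_mem_iff' {x y : G} (hx : x ∈ normalizer (P : Set G)) (hy : y ∈ normalizer (P : Set G)) :
    x * y ∈ P ↔ (x ∈ P ↔ y ∈ P) := by
  have h := Subgroup.mul_mem_iff_of_index_two h.index_eq_two
    (a := (⟨x, hx⟩ : normalizer (P : Set G))) (b := ⟨y, hy⟩)
  simpa [mem_subgroupOf] using h

theorem sq_mem {x : G} (hx : x ∈ normalizer (P : Set G)) : x * x ∈ P := by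
  rw [h.mul_mem_iff' hx hx]

/-- Every element of `N(P) \ P` inverts `P`. -/
theorem conj_eq_inv {x y : G} (hx : x ∈ normalizer (P : Set G)) (hxP : x ∉ P) (hy : y ∈ P) :
    x * y * x⁻¹ = y⁻¹ := by
  have h1 : x * y * x⁻¹ ∈ P := (mem_normalizer_iff.1 hx y).1 hy
  have hxx : x * x ∈ P := h.sq_mem hx
  by_contra hne
  have hw1 : y * (x * y * x⁻¹) ≠ 1 := by
    intro h
    apply hne
    exact (inv_eq_of_mul_eq_one_right h).symm
  apply hxP
  refine h.cent _ (P.mul_mem hy h1) hw1 x ?_
  have h2 : x * x * y = y * (x * x) := h.comm _ hxx _ hy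
  have h3 : x * (y * (x * y * x⁻¹)) * x⁻¹ = y * (x * y * x⁻¹) := by
    calc x * (y * (x * y * x⁻¹)) * x⁻¹ = (x * y * x⁻¹) * ((x * x * y) * (x * x)⁻¹) := by group
      _ = (x * y * x⁻¹) * y := by rw [h2]; group
      _ = y * (x * y * x⁻¹) := h.comm _ h1 _ hy
  calc x * (y * (x * y * x⁻¹)) = x * (y * (x * y * x⁻¹)) * x⁻¹ * x := by group
    _ = y * (x * y * x⁻¹) * x := by rw [h3]

/-- Every element of `N(P) \ P` is an involution. -/
theorem sq_eq_one {x : G} (hx : x ∈ normalizer (P : Set G)) (hxP : x ∉ P) : x ^ 2 = 1 := by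
  have hxx : x * x ∈ P := h.sq_mem hx
  have h1 := h.conj_eq_inv hx hxP hxx
  have h2 : x * (x * x) * x⁻¹ = x * x := by group
  rw [h2] at h1
  have h3 : (x * x) ^ 2 = 1 := by
    rw [pow_two]
    nth_rewrite 1 [h1]
    exact inv_mul_cancel _
  have := h.sq_ne_one_of_mem hxx h3
  rw [pow_two]; exact this

theorem orderOf_eq_two {x : G} (hx : x ∈ normalizer (P : Set G)) (hxP : x ∉ P) :
    orderOf x = 2 :=
  orderOf_eq_prime (h.sq_eq_one hx hxP) (fun h => hxP (h ▸ P.one_mem))

/-- Elements of order two of `N(P)` are exactly the elements outside `P`. -/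
theorem orderOf_eq_two_iff {x : G} (hx : x ∈ normalizer (P : Set G)) :
    orderOf x = 2 ↔ x ∉ P := by
  refine ⟨fun h' hxP => ?_, fun h' => h.orderOf_eq_two hx h'⟩
  have h1 : x ^ 2 = 1 := h' ▸ pow_orderOf_eq_one x
  have := h.sq_ne_one_of_mem hxP h1
  rw [this, orderOf_one] at h'
  exact absurd h' (by norm_num)

/-- Any two elements of `N(P) \ P` are conjugate. -/
theorem isConj_of_mem {x x' : G} (hx : x ∈ normalizer (P : Set G)) (hxP : x ∉ P)
    (hx' : x' ∈ normalizer (P : Set G)) (hxP' : x' ∉ P) : IsConj x x' := by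
  have h1 : x⁻¹ * x' ∈ P := by
    rw [h.mul_mem_iff' (inv_mem hx) hx']
    constructor
    · intro h; exact absurd ((inv_mem_iff).1 h) hxP
    · intro h; exact absurd h hxP'
  obtain ⟨w, hw, hw2⟩ := h.exists_sq_eq h1
  rw [isConj_iff]
  refine ⟨w⁻¹, ?_⟩
  have h2 : x * w * x⁻¹ = w⁻¹ := h.conj_eq_inv hx hxP hw
  calc w⁻¹ * x * w⁻¹⁻¹ = (x * w * x⁻¹) * x * w := by rw [h2, inv_inv]
    _ = x * w ^ 2 := by rw [pow_two]; group
    _ = x' := by rw [hw2]; group

/-- The set `N(P) \ P` has `|P|` elements. -/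
theorem card_diff :
    Nat.card {x : G // x ∈ normalizer (P : Set G) ∧ x ∉ P} = Nat.card P := by
  have hfin : Finite (normalizer (P : Set G)) :=
    Nat.finite_of_card_ne_zero (by rw [h.cardN]; exact mul_ne_zero two_ne_zero h.card_pos.ne')
  have hf2 : Finite P := h.finite
  classical
  have e : (normalizer (P : Set G)) ≃ P ⊕ {x : G // x ∈ normalizer (P : Set G) ∧ x ∉ P} :=
    { toFun := fun x => if h : (x : G) ∈ P then Sum.inl ⟨x, h⟩ else Sum.inr ⟨x, x.2, h⟩
      invFun := fun s => Sum.elim (fun y => ⟨y.1, le_normalizer y.2⟩) (fun y => ⟨y.1, y.2.1⟩) s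
      left_inv := by
        intro x
        by_cases h : (x : G) ∈ P
        · simp [h]
        · simp [h]
      right_inv := by
        rintro (⟨y, hy⟩ | ⟨y, hy⟩)
        · simp [hy]
        · simp [hy.2] }
  have hf3 : Finite {x : G // x ∈ normalizer (P : Set G) ∧ x ∉ P} :=
    Finite.of_injective (β := normalizer (P : Set G)) (fun x => ⟨x.1, x.2.1⟩)
      (fun x y h => Subtype.ext (congrArg (fun z : normalizer (P : Set G) => (z : G)) h))
  have h1 := Nat.card_congr e
  rw [Nat.card_sum, h.cardN] at h1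
  omega

theorem exists_mem_diff : ∃ x : G, x ∈ normalizer (P : Set G) ∧ x ∉ P := by
  have h1 := h.card_diff
  have h2 : Nat.card {x : G // x ∈ normalizer (P : Set G) ∧ x ∉ P} ≠ 0 := by
    rw [h1]; exact h.card_pos.ne'
  obtain ⟨⟨x, hx, hxP⟩⟩ := (Nat.card_ne_zero.1 h2).1
  exact ⟨x, hx, hxP⟩

omit h in
theorem orderOf_conj (x s : G) : orderOf (x⁻¹ * s * x) = orderOf s := by
  have h := orderOf_injective (MulAut.conj x⁻¹).toMonoidHom (MulAut.conj x⁻¹).injective s
  have h' : orderOf (x⁻¹ * s * x⁻¹⁻¹) = orderOf s := h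
  rwa [inv_inv] at h'

/-- Elements of order two are not conjugate to elements of `P`. -/
theorem conj_mem_eq_one {s : G} (hs : s ^ 2 = 1) (x : G) (hx : x⁻¹ * s * x ∈ P) :
    x⁻¹ * s * x = 1 := by
  apply h.sq_ne_one_of_mem hx
  have : (x⁻¹ * s * x) ^ 2 = x⁻¹ * s ^ 2 * x := by rw [pow_two, pow_two]; group
  rw [this, hs]; group

/-- If a product `u * v` of two involutions is conjugate to a nontrivial element of `P`,
then `v` is conjugate into `N(P)`. -/
theorem conj_mem_normalizer {u v : G}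
    (hu : u ^ 2 = 1) (hv : v ^ 2 = 1) (x : G) (hx : x⁻¹ * (u * v) * x ∈ P)
    (hx1 : x⁻¹ * (u * v) * x ≠ 1) : x⁻¹ * v * x ∈ normalizer (P : Set G) := by
  apply h.conj _ hx hx1
  have hu' : u⁻¹ = u := inv_eq_of_mul_eq_one_right (by rw [← pow_two, hu])
  have hv' : v⁻¹ = v := inv_eq_of_mul_eq_one_right (by rw [← pow_two, hv])
  have : x⁻¹ * v * x * (x⁻¹ * (u * v) * x) * (x⁻¹ * v * x)⁻¹ = (x⁻¹ * (u * v) * x)⁻¹ := by
    calc x⁻¹ * v * x * (x⁻¹ * (u * v) * x) * (x⁻¹ * v * x)⁻¹ = x⁻¹ * (v * u) * x := by group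
      _ = x⁻¹ * (v⁻¹ * u⁻¹) * x := by rw [hu', hv']
      _ = (x⁻¹ * (u * v) * x)⁻¹ := by group
  rw [this]
  exact P.inv_mem hx

/-- The number of ways to write a conjugate of a nontrivial element of `P` as a product of two
involutions is `|P|`. -/
theorem card_inverting {x g : G} (hx : g⁻¹ * x * g ∈ P) (hx1 : g⁻¹ * x * g ≠ 1) :
    Nat.card {v : G // orderOf v = 2 ∧ orderOf (x * v⁻¹) = 2} = Nat.card P := by
  rw [← h.card_diff]
  refine Nat.card_congr ⟨fun v => ⟨g⁻¹ * v.1 * g, ?_, ?_⟩, fun w => ⟨g * w.1 * g⁻¹, ?_, ?_⟩,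
    fun v => ?_, fun w => ?_⟩
  · have hu : (x * v.1⁻¹) ^ 2 = 1 := orderOf_dvd_iff_pow_eq_one.1 v.2.2.dvd
    have hv : v.1 ^ 2 = 1 := orderOf_dvd_iff_pow_eq_one.1 v.2.1.dvd
    exact h.conj_mem_normalizer hu hv g (by rwa [inv_mul_cancel_right])
      (by rwa [inv_mul_cancel_right])
  · have hu : (x * v.1⁻¹) ^ 2 = 1 := orderOf_dvd_iff_pow_eq_one.1 v.2.2.dvd
    have hv : v.1 ^ 2 = 1 := orderOf_dvd_iff_pow_eq_one.1 v.2.1.dvd
    have hmem : g⁻¹ * v.1 * g ∈ normalizer (P : Set G) :=
      h.conj_mem_normalizer hu hv g (by rwa [inv_mul_cancel_right])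
        (by rwa [inv_mul_cancel_right])
    rw [← h.orderOf_eq_two_iff hmem, orderOf_conj, v.2.1]
  · have h1 := orderOf_conj g⁻¹ w.1
    rw [inv_inv] at h1
    rw [h1, h.orderOf_eq_two_iff w.2.1]
    exact w.2.2
  · have h1 := orderOf_conj g (x * (g * w.1 * g⁻¹)⁻¹)
    have h2 : g⁻¹ * (x * (g * w.1 * g⁻¹)⁻¹) * g = g⁻¹ * x * g * w.1⁻¹ := by group
    rw [h2] at h1
    have h3 : w.1⁻¹ ∉ P := fun h => w.2.2 (inv_mem_iff.1 h)
    have h4 : g⁻¹ * x * g * w.1⁻¹ ∈ normalizer (P : Set G) :=
      mul_mem (le_normalizer hx) (inv_mem w.2.1)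
    rw [← h1, h.orderOf_eq_two_iff h4]
    intro h
    exact h3 ((Subgroup.mul_mem_cancel_left P hx).1 h)
  · apply Subtype.ext
    change g * (g⁻¹ * v.1 * g) * g⁻¹ = v.1
    group
  · apply Subtype.ext
    change g⁻¹ * (g * w.1 * g⁻¹) * g = w.1
    group

/-- A nontrivial element of `P` fixes exactly one coset of `N(P)`. -/
theorem card_fixedBy_eq_one [Finite G] {y : G} (hy : y ∈ P) (hy1 : y ≠ 1) :
    Nat.card (MulAction.fixedBy (G ⧸ normalizer (P : Set G)) y) = 1 := by
  rw [Nat.card_eq_one_iff_unique]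
  refine ⟨⟨?_⟩, ⟨⟨((1 : G) : G ⧸ normalizer (P : Set G)), ?_⟩⟩⟩
  · have key : ∀ x : MulAction.fixedBy (G ⧸ normalizer (P : Set G)) y,
        x.1 = ((1 : G) : G ⧸ normalizer (P : Set G)) := by
      rintro ⟨x, hx⟩
      obtain ⟨g, rfl⟩ := QuotientGroup.mk_surjective x
      have h1 : ((y * g : G) : G ⧸ normalizer (P : Set G)) = (g : G ⧸ normalizer (P : Set G)) := hx
      rw [QuotientGroup.eq] at h1
      have h2 : g⁻¹ * y * g ∈ normalizer (P : Set G) := by
        have := inv_mem h1
        have e : ((y * g)⁻¹ * g)⁻¹ = g⁻¹ * y * g := by group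
        rwa [e] at this
      have h3 : g⁻¹ * y * g ∈ P := by
        by_contra h4
        have h5 := h.orderOf_eq_two h2 h4
        rw [orderOf_conj] at h5
        have h6 : y ^ 2 = 1 := orderOf_dvd_iff_pow_eq_one.1 h5.dvd
        exact hy1 (h.sq_ne_one_of_mem hy h6)
      have h7 : g⁻¹ ∈ normalizer (P : Set G) :=
        h.conj _ hy hy1 _ (by rwa [inv_inv])
      change (g : G ⧸ normalizer (P : Set G)) = ((1 : G) : G ⧸ normalizer (P : Set G))
      rw [QuotientGroup.eq, mul_one]
      exact h7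
    intro a b
    exact Subtype.ext ((key a).trans (key b).symm)
  · change ((y * 1 : G) : G ⧸ normalizer (P : Set G)) = ((1 : G) : G ⧸ normalizer (P : Set G))
    rw [QuotientGroup.eq, mul_one, mul_one]
    exact inv_mem (le_normalizer hy)

/-- `|P|` times the number of `P`-orbits on the cosets of `N(P)` is `n + |P| - 1`. -/
theorem card_orbits [Finite G] :
    Nat.card (MulAction.orbitRel.Quotient P (G ⧸ normalizer (P : Set G))) * Nat.card P =
      (normalizer (P : Set G)).index + (Nat.card P - 1) := by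
  classical
  have := Fintype.ofFinite G
  have := Fintype.ofFinite (G ⧸ normalizer (P : Set G))
  have := Fintype.ofFinite (MulAction.orbitRel.Quotient P (G ⧸ normalizer (P : Set G)))
  have : ∀ a : P, Fintype (MulAction.fixedBy (G ⧸ normalizer (P : Set G)) a) :=
    fun a => Fintype.ofFinite _
  have h' := MulAction.sum_card_fixedBy_eq_card_orbits_mul_card_group P
    (G ⧸ normalizer (P : Set G))
  rw [← Finset.add_sum_erase Finset.univ _ (Finset.mem_univ (1 : P))] at h'
  have h1 : Fintype.card (MulAction.fixedBy (G ⧸ normalizer (P : Set G)) (1 : P)) =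
      (normalizer (P : Set G)).index := by
    rw [← Nat.card_eq_fintype_card, Subgroup.index]
    refine Nat.card_congr ((Equiv.setCongr ?_).trans (Equiv.Set.univ _))
    ext x
    simp
  have h2 : ∀ a ∈ Finset.univ.erase (1 : P),
      Fintype.card (MulAction.fixedBy (G ⧸ normalizer (P : Set G)) a) = 1 := by
    intro a ha
    rw [← Nat.card_eq_fintype_card]
    exact h.card_fixedBy_eq_one a.2
      (fun h => (Finset.mem_erase.1 ha).1 (Subtype.ext h))
  rw [h1, Finset.sum_congr rfl h2, Finset.sum_const, Finset.card_erase_of_mem (Finset.mem_univ _),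
    Finset.card_univ, smul_eq_mul, mul_one, ← Nat.card_eq_fintype_card (α := P)] at h'
  rw [Nat.card_eq_fintype_card]
  exact h'.symm

/-- The index of `N(P)` is `1` modulo `|P|`. -/
theorem index_modEq [Finite G] : (normalizer (P : Set G)).index ≡ 1 [MOD Nat.card P] := by
  have h1 := h.card_orbits
  have h2 := h.card_pos
  have h3 : (normalizer (P : Set G)).index + (Nat.card P - 1) + 1 =
      (normalizer (P : Set G)).index + Nat.card P := by omega
  have h4 : (normalizer (P : Set G)).index + Nat.card P ≡ 1 [MOD Nat.card P] := by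
    rw [← h3, ← h1]
    simp [Nat.ModEq]
  exact (by simp [Nat.ModEq] : (normalizer (P : Set G)).index ≡
      (normalizer (P : Set G)).index + Nat.card P [MOD Nat.card P]).trans h4

theorem card_eq [Finite G] :
    Nat.card G = 2 * Nat.card P * (normalizer (P : Set G)).index := by
  rw [← h.cardN]; exact (card_mul_index _).symm

/-- `|P|` is prime to `|G : P|`. -/
theorem coprime_index [Finite G] :
    Nat.Coprime (Nat.card P) (2 * (normalizer (P : Set G)).index) := by
  apply Nat.Coprime.mul_right h.odd.coprime_two_right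
  have h1 := h.index_modEq
  have h2 : Nat.gcd (Nat.card P) ((normalizer (P : Set G)).index) = Nat.gcd (Nat.card P) 1 := by
    rw [Nat.gcd_comm, Nat.gcd_comm _ 1]
    exact h1.gcd_eq
  rw [Nat.gcd_one_right] at h2
  exact h2

/-- The order of the centralizer of an involution is prime to `|P|`. -/
theorem coprime_centralizer [Finite G] {t : G} (ht : orderOf t = 2) :
    Nat.Coprime (Nat.card P) (Nat.card (centralizer ({t} : Set G))) := by
  have hfP := h.finite
  apply Nat.coprime_of_dvd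
  intro q hq hqP hqC
  have := Fact.mk hq
  obtain ⟨⟨y, hyt⟩, hy⟩ := exists_prime_orderOf_dvd_card' q hqC
  rw [Subgroup.orderOf_mk] at hy
  rw [mem_centralizer_singleton_iff] at hyt
  obtain ⟨S⟩ : Nonempty (Sylow q P) := inferInstance
  have hcard : Nat.card G = Nat.card P * (2 * (normalizer (P : Set G)).index) := by
    rw [h.card_eq]; ring
  have hnd : ¬ q ∣ 2 * (normalizer (P : Set G)).index := fun hd =>
    hq.one_lt.ne' (Nat.dvd_one.1 (h.coprime_index ▸ Nat.dvd_gcd hqP hd))
  have hpos : 2 * (normalizer (P : Set G)).index ≠ 0 := by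
    intro h0
    rw [h0, mul_zero] at hcard
    exact Nat.card_pos.ne' hcard
  have hS : Nat.card ((S : Subgroup P).map P.subtype) = q ^ (Nat.card G).factorization q := by
    rw [Subgroup.card_subtype, S.card_eq_multiplicity, hcard,
      Nat.factorization_mul h.card_pos.ne' hpos, Finsupp.add_apply,
      Nat.factorization_eq_zero_of_not_dvd hnd, add_zero]
  obtain ⟨T, hT⟩ : ∃ T : Sylow q G, zpowers y ≤ T := by
    apply IsPGroup.exists_le_sylow
    apply IsPGroup.of_card (n := 1)
    rw [Nat.card_zpowers, hy, pow_one]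
  obtain ⟨g, hg⟩ := MulAction.exists_smul_eq G T (Sylow.ofCard _ hS)
  have hmem : g * y * g⁻¹ ∈ P := by
    have h1 : g * y * g⁻¹ ∈ (g • T : Sylow q G) := by
      rw [Sylow.smul_def]
      exact Subgroup.smul_mem_pointwise_smul y (MulAut.conj g) _ (hT (mem_zpowers y))
    rw [hg] at h1
    have h2 : g * y * g⁻¹ ∈ (S : Subgroup P).map P.subtype := h1
    obtain ⟨w, -, hw⟩ := h2
    rw [← hw]; exact w.2
  have hne : g * y * g⁻¹ ≠ 1 := by
    intro h1
    have h2 : y = 1 := by
      have : y = g⁻¹ * (g * y * g⁻¹) * g := by group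
      rw [this, h1]; group
    rw [h2, orderOf_one] at hy
    exact hq.one_lt.ne hy
  have h1 : g * t * g⁻¹ ∈ P := by
    apply h.cent _ hmem hne
    calc g * t * g⁻¹ * (g * y * g⁻¹) = g * (t * y) * g⁻¹ := by group
      _ = g * (y * t) * g⁻¹ := by rw [hyt]
      _ = g * y * g⁻¹ * (g * t * g⁻¹) := by group
  have h2 := h.conj_mem_eq_one (s := t) (by rw [← ht]; exact pow_orderOf_eq_one t) g⁻¹
    (by rwa [inv_inv])
  rw [inv_inv] at h2
  have h3 : t = 1 := by
    have : t = g⁻¹ * (g * t * g⁻¹) * g := by group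
    rw [this, h2]; group
  rw [h3, orderOf_one] at ht
  exact absurd ht (by norm_num)

end IsDCC

end Cfsg.Agent.H398.CC
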