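import Mathlib
import Cfsg.Prelude.Def_Characters
import Cfsg.Agent.H398.CC.Data

/-!
# The order formula for groups with a Steinberg character
-/

set_option autoImplicit false

namespace Cfsg.Agent.H398.CC

open Subgroup Cfsg Cfsg.Agent.Characters.Core

universe u

variable {G : Type u} [Group G] {P : Subgroup G}

/-- `G` has an irreducible character of degree the `r`-part of the order, vanishing on the nontrivial
`r`-elements (same as `Cfsg.Agent.H167.StChar.HasSt`). -/
def HasStein (r : ℕ) (G : Type*) [Group G] : Prop :=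
  ∃ χ : G → ℂ, IsIrrCharacter G χ ∧ χ 1 = ((r ^ (Nat.card G).factorization r : ℕ) : ℂ) ∧
    ∀ x : G, (∃ k : ℕ, x ^ r ^ k = 1) → x ≠ 1 → χ x = 0

/-- `|G| = q^a M` with `q` a power of the prime `r`, `M` prime to `q`, and `G` has a Steinberg character
for `r`. -/
structure LieHyp (G : Type*) [Group G] (r q a M : ℕ) : Prop where
  prime : r.Prime
  qpow : ∃ f : ℕ, 0 < f ∧ q = r ^ f
  a_pos : 0 < a
  st : HasStein r G
  card : Nat.card G = q ^ a * M
  cop : Nat.Coprime M q

namespace LieHyp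

variable {r q a M : ℕ}

theorem not_dvd (L : LieHyp G r q a M) : ¬ r ∣ M := by
  intro hd
  obtain ⟨f, hf, hq⟩ := L.qpow
  have h1 : r ∣ q := by rw [hq]; exact dvd_pow_self r hf.ne'
  have h2 := Nat.dvd_gcd hd h1
  rw [L.cop] at h2
  exact L.prime.one_lt.ne' (Nat.dvd_one.1 h2)

theorem one_lt (L : LieHyp G r q a M) : 1 < q := by
  obtain ⟨f, hf, hq⟩ := L.qpow
  rw [hq]; exact Nat.one_lt_pow hf.ne' L.prime.one_lt

theorem M_pos [Finite G] (L : LieHyp G r q a M) : 0 < M := by
  rcases Nat.eq_zero_or_pos M with h | h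
  · have := L.card
    rw [h, mul_zero] at this
    exact absurd this Nat.card_pos.ne'
  · exact h

theorem part [Finite G] (L : LieHyp G r q a M) : r ^ (Nat.card G).factorization r = q ^ a := by
  obtain ⟨f, hf, hq⟩ := L.qpow
  have h1 : q ^ a = r ^ (f * a) := by rw [hq, ← pow_mul]
  rw [L.card, Nat.factorization_mul (pow_ne_zero _ (by have := L.one_lt; omega)) L.M_pos.ne',
    Finsupp.add_apply, Nat.factorization_eq_zero_of_not_dvd L.not_dvd, add_zero, h1,
    L.prime.factorization_pow]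
  simp

end LieHyp

/-- The order formula for a simple group of Lie type. -/
theorem IsDCC.lie [Finite G] [IsSimpleGroup G] (h : IsDCC P) {r q a M : ℕ}
    (L : LieHyp G r q a M) :
    (Nat.Coprime (Nat.card P) q ∧ ∃ c : ℕ, 0 < c ∧
      ((M = Nat.card P * (q ^ a + 1) * c ^ 2 ∧
          Nat.Coprime (Nat.card P) ((q ^ a + 1) * c ^ 2)) ∨
        (M = Nat.card P * (q ^ a - 1) * c ^ 2 ∧
          Nat.Coprime (Nat.card P) ((q ^ a - 1) * c ^ 2)))) ∨
    (Nat.card P = q ^ a ∧ (q ^ a - 1) * (q ^ a - 2) ≤ M ∧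
      ∃ d c : ℕ, 2 ≤ d ∧ 0 < c ∧ M = d * (d + 1) * c ^ 2 ∧
        (d ≡ 1 [MOD Nat.card P] ∨ d + 2 ≡ 0 [MOD Nat.card P])) := by
  classical
  have := Fintype.ofFinite G
  have := Fact.mk L.prime
  have hq1 := L.one_lt
  have hm1 := h.one_lt
  obtain ⟨t, htN, htP⟩ := h.exists_mem_diff
  have ht := h.orderOf_eq_two htN htP
  have hfP := h.finite
  obtain ⟨χ, hχ, hdeg, hvan⟩ := L.st
  rw [L.part] at hdeg
  have hcardG : Nat.card G = Nat.card P * (2 * (normalizer (P : Set G)).index) := by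
    rw [h.card_eq]; ring
  have hχ1 : χ ≠ 1 := by
    rintro rfl
    simp only [Pi.one_apply] at hdeg
    have h1 : 1 = q ^ a := by exact_mod_cast hdeg
    exact (Nat.one_lt_pow L.a_pos.ne' hq1).ne h1
  have hQpos : 0 < q ^ a := pow_pos (by omega) a
  by_cases hr : r ∣ Nat.card P
  · right
    -- `P` is a Sylow `r`-subgroup
    obtain ⟨⟨x, hx⟩, hxo⟩ := exists_prime_orderOf_dvd_card' r hr
    rw [Subgroup.orderOf_mk] at hxo
    have hx1 : x ≠ 1 := by
      intro h1
      rw [h1, orderOf_one] at hxo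
      exact L.prime.one_lt.ne hxo
    have hx0 : χ x = 0 := hvan x ⟨1, by rw [pow_one, ← hxo, pow_orderOf_eq_one]⟩ hx1
    have hdvd : Nat.card P ∣ q ^ a := by
      by_contra hnd
      obtain ⟨μ, α, β, hp, hor⟩ := h.exists_pair_of_not_dvd hχ hχ1 hdeg hnd
      have h2 := h.ne_zero hp hx hx1
      rcases hor with rfl | rfl
      · exact h2.1 hx0
      · exact h2.2 hx0
    have hcopM : Nat.Coprime (q ^ a) M := (L.cop.symm).pow_left a
    -- `q ^ a ∣ |P|`
    have hdvd2 : q ^ a ∣ Nat.card P := by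
      have h1 : Nat.Coprime (q ^ a) (2 * (normalizer (P : Set G)).index) := by
        obtain ⟨f, hf, hqf⟩ := L.qpow
        have h2 : q ^ a = r ^ (f * a) := by rw [hqf, ← pow_mul]
        rw [h2]
        apply Nat.Coprime.pow_left
        rw [L.prime.coprime_iff_not_dvd]
        intro h3
        have h4 := Nat.dvd_gcd hr h3
        rw [h.coprime_index] at h4
        exact L.prime.one_lt.ne' (Nat.dvd_one.1 h4)
      have h2 : q ^ a ∣ Nat.card P * (2 * (normalizer (P : Set G)).index) := by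
        rw [← hcardG, L.card]; exact Dvd.intro _ rfl
      exact h1.dvd_of_dvd_mul_right h2
    have hPQ : Nat.card P = q ^ a := Nat.dvd_antisymm hdvd hdvd2
    obtain ⟨μ, hμ⟩ := h.exists_hom_ne_one
    obtain ⟨α, β, hp⟩ := h.exists_pair μ hμ
    obtain ⟨d, hd0, hd⟩ := isIrr_apply_one hp.irra
    obtain ⟨hd2, hmod, hcop, c, ρ, hc, hρ, hρ2, hG, hk, -, -⟩ := h.data ht hp hd
    have hM : M = d * (d + 1) * c ^ 2 := by
      have h1 : q ^ a * M = q ^ a * (d * (d + 1) * c ^ 2) := by
        rw [← L.card, hG, hPQ]; ring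
      exact Nat.eq_of_mul_eq_mul_left hQpos h1
    refine ⟨hPQ, ?_, d, c, hd2, hc, hM, hmod⟩
    have hdQ : q ^ a - 2 ≤ d := by
      rcases hmod with h1 | h1
      · -- `d ≡ 1`, `d ≥ 2`
        have h2 : Nat.card P ∣ d - 1 := (Nat.modEq_iff_dvd' (by omega)).1 h1.symm
        have h3 := Nat.le_of_dvd (by omega) h2
        omega
      · have h2 : Nat.card P ∣ d + 2 := (Nat.modEq_zero_iff_dvd).1 h1
        have h3 := Nat.le_of_dvd (by omega) h2
        omega
    have hdQ' : q ^ a - 1 ≤ d + 1 := by omega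
    calc (q ^ a - 1) * (q ^ a - 2) ≤ (d + 1) * d := Nat.mul_le_mul hdQ' hdQ
      _ = d * (d + 1) * 1 := by ring
      _ ≤ d * (d + 1) * c ^ 2 := Nat.mul_le_mul_left _ (Nat.one_le_pow _ _ hc)
      _ = M := hM.symm
  · left
    have hcopq : Nat.Coprime (Nat.card P) q := by
      obtain ⟨f, hf, hqf⟩ := L.qpow
      rw [hqf]
      apply Nat.Coprime.pow_right
      rw [Nat.coprime_comm, L.prime.coprime_iff_not_dvd]
      exact hr
    refine ⟨hcopq, ?_⟩
    have hnd : ¬ Nat.card P ∣ q ^ a := by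
      intro hd
      have h1 := Nat.Coprime.eq_one_of_dvd (hcopq.pow_right a) hd
      omega
    obtain ⟨μ, α, β, hp, hor⟩ := h.exists_pair_of_not_dvd hχ hχ1 hdeg hnd
    obtain ⟨d, hd0, hd⟩ := isIrr_apply_one hp.irra
    obtain ⟨hd2, hmod, hcop, c, ρ, hc, hρ, hρ2, hG, hk, -, -⟩ := h.data ht hp hd
    have hQd : q ^ a = d ∨ q ^ a = d + 1 := by
      rcases hor with rfl | rfl
      · left
        rw [hdeg] at hd; exact_mod_cast hd
      · right
        rw [hp.deg, hd] at hdeg
        exact_mod_cast hdeg.symm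
    have hM : q ^ a * M = Nat.card P * (d * (d + 1) * c ^ 2) := by
      rw [← L.card, hG]; ring
    have hcop2 : Nat.Coprime (Nat.card P) (d * (d + 1) * c ^ 2) := by
      have h1 : Nat.card P * (d * (d + 1) * c ^ 2) =
          Nat.card P * (2 * (normalizer (P : Set G)).index) := by
        rw [← hcardG, hG]; ring
      rw [Nat.eq_of_mul_eq_mul_left h.card_pos h1]
      exact h.coprime_index
    refine ⟨c, hc, ?_⟩
    rcases hQd with h1 | h1
    · left
      have h2 : q ^ a * M = q ^ a * (Nat.card P * (q ^ a + 1) * c ^ 2) := by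
        rw [hM, ← h1]; ring
      refine ⟨Nat.eq_of_mul_eq_mul_left hQpos h2, ?_⟩
      rw [h1]
      exact Nat.Coprime.coprime_dvd_right ⟨d, by ring⟩ hcop2
    · right
      have h3 : q ^ a - 1 = d := by omega
      have h2 : q ^ a * M = q ^ a * (Nat.card P * (q ^ a - 1) * c ^ 2) := by
        rw [hM, h3, h1]; ring
      refine ⟨Nat.eq_of_mul_eq_mul_left hQpos h2, ?_⟩
      rw [h3]
      exact Nat.Coprime.coprime_dvd_right ⟨d + 1, by ring⟩ hcop2

end Cfsg.Agent.H398.CC
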