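import Mathlib
import Cfsg.Agent.H398.CC.Lie
import Cfsg.Agent.H398.CC.Arith

/-!
# Groups of Lie type without an abelian CC-subgroup `P` of odd order with `|N(P)| = 2|P|`
-/

set_option autoImplicit false

namespace Cfsg.Agent.H398.CC

open Subgroup Cfsg Arith

universe u

variable {G : Type u} [Group G] {P : Subgroup G}

namespace IsDCC

variable [Finite G] [IsSimpleGroup G] (h : IsDCC P) {r q a M : ℕ} (L : LieHyp G r q a M)

omit [Finite G] [IsSimpleGroup G] in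
include h in
theorem odd_card_three_le : 3 ≤ Nat.card P := by
  have h1 := h.one_lt
  obtain ⟨k, hk⟩ := h.odd
  omega

include h L

omit [Finite G] [IsSimpleGroup G] in
/-- If `|P|` is a power of the characteristic then `q ≥ 3`. -/
theorem three_le_of_card (hP : Nat.card P = q ^ a) : 3 ≤ q := by
  have h1 := L.one_lt
  have h2 := h.odd
  rw [hP] at h2
  by_contra hcon
  have : q = 2 := by omega
  subst this
  rw [Nat.odd_pow_iff L.a_pos.ne'] at h2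
  exact absurd h2 (by decide)

theorem false_of_bad (hb : Bad q a M) : False := by
  rcases h.lie L with ⟨-, c, -, ⟨hM, -⟩ | ⟨hM, -⟩⟩ | ⟨hP, hM, -⟩
  · exact hb.add ⟨Nat.card P * c ^ 2, by rw [hM]; ring⟩
  · exact hb.sub ⟨Nat.card P * c ^ 2, by rw [hM]; ring⟩
  · exact absurd (hb.lt (h.three_le_of_card L hP)) (not_lt.2 hM)

/-- Variant: `g M = x (q ^ a - 1)` with `x ∣ q ^ a - 1`. -/
theorem false_of_dvd {g x : ℕ} (hM : g * M = x * (q ^ a - 1)) (hx : x ∣ q ^ a - 1)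
    (hadd : ¬ (q ^ a + 1) ∣ M) (hlt : 3 ≤ q → M < (q ^ a - 1) * (q ^ a - 2)) : False := by
  have hq1 := L.one_lt
  have hQ : 1 < q ^ a := Nat.one_lt_pow L.a_pos.ne' hq1
  rcases h.lie L with ⟨-, c, hc, ⟨hM', -⟩ | ⟨hM', hcop⟩⟩ | ⟨hP, hM', -⟩
  · exact hadd ⟨Nat.card P * c ^ 2, by rw [hM']; ring⟩
  · rw [hM'] at hM
    have h1 : (q ^ a - 1) * (Nat.card P * (g * c ^ 2)) = (q ^ a - 1) * x := by
      linear_combination hM
    have h2 : Nat.card P * (g * c ^ 2) = x := Nat.eq_of_mul_eq_mul_left (by omega) h1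
    have h3 : Nat.card P ∣ q ^ a - 1 := (Dvd.intro _ h2).trans hx
    have h4 : Nat.Coprime (Nat.card P) (q ^ a - 1) := Nat.Coprime.coprime_dvd_right (Dvd.intro _ rfl) hcop
    have h5 := Nat.Coprime.eq_one_of_dvd h4 h3
    have := h.one_lt
    omega
  · exact absurd (hlt (h.three_le_of_card L hP)) (not_lt.2 hM')

end IsDCC

theorem sub_one_dvd {q a b : ℕ} (h : a ∣ b) : q ^ a - 1 ∣ q ^ b - 1 := by
  obtain ⟨c, rfl⟩ := h
  rw [pow_mul]
  exact Nat.sub_one_dvd_pow_sub_one _ _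

section

variable [Finite G] [IsSimpleGroup G] (h : IsDCC P) {r q M : ℕ}

include h

/-- `PSp₄(q)` -/
theorem IsDCC.false_of_psp4 (L : LieHyp G r q 4 M) {g : ℕ} (hg : 1 ≤ g)
    (hM : g * M = (q ^ 2 - 1) * (q ^ 4 - 1)) : False := by
  have hq : 2 ≤ q := L.one_lt
  have hMF : M ∣ pf q [2, 4] [] := ⟨g, by rw [mul_comm M g, hM]; simp [pf]⟩
  have hle : M ≤ (q ^ 2 - 1) * (q ^ 4 - 1) := by rw [← hM]; exact Nat.le_mul_of_pos_left _ hg
  refine h.false_of_dvd L hM (sub_one_dvd (by norm_num)) ?_ ?_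
  · intro hd
    obtain ⟨z, hz⟩ := exists_pr hq (by norm_num : 3 ≤ 8) (by omega)
    exact not_dvd_pf (by omega) hz (by decide) (by decide)
      (((hz.dvd_add (by omega) (by norm_num : 8 = 2 * 4) (by norm_num)).trans hd).trans hMF)
  · intro h3
    refine lt_of_le_pow (s := 6) h3 (by norm_num) (by norm_num) (hle.trans ?_)
    calc (q ^ 2 - 1) * (q ^ 4 - 1) ≤ q ^ 2 * q ^ 4 := Nat.mul_le_mul (Nat.sub_le _ _) (Nat.sub_le _ _)
      _ = q ^ 6 := by ring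

/-- `G₂(q)` -/
theorem IsDCC.false_of_g2 (L : LieHyp G r q 6 M) (hM : M = (q ^ 2 - 1) * (q ^ 6 - 1)) : False := by
  have hq : 2 ≤ q := L.one_lt
  have hMF : M ∣ pf q [2, 6] [] := ⟨1, by rw [mul_one, hM]; simp [pf]⟩
  refine h.false_of_dvd L (g := 1) (by rw [one_mul, hM]) (sub_one_dvd (by norm_num)) ?_ ?_
  · intro hd
    obtain ⟨z, hz⟩ := exists_pr hq (by norm_num : 3 ≤ 12) (by omega)
    exact not_dvd_pf (by omega) hz (by decide) (by decide)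
      (((hz.dvd_add (by omega) (by norm_num : 12 = 2 * 6) (by norm_num)).trans hd).trans hMF)
  · intro h3
    refine lt_of_le_pow (s := 8) h3 (by norm_num) (by norm_num) ?_
    rw [hM]
    calc (q ^ 2 - 1) * (q ^ 6 - 1) ≤ q ^ 2 * q ^ 6 := Nat.mul_le_mul (Nat.sub_le _ _) (Nat.sub_le _ _)
      _ = q ^ 8 := by ring

/-- `²G₂(q)`, `q = 3 ^ (2 k + 1)`. -/
theorem IsDCC.false_of_ree (L : LieHyp G r q 3 M) (hM : M = (q - 1) * (q ^ 3 + 1)) {k : ℕ}
    (hqk : q = 3 ^ (2 * k + 1)) : False := by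
  have hq : 2 ≤ q := L.one_lt
  have hMF : M ∣ pf q [1] [3] := ⟨1, by rw [mul_one, hM]; simp [pf]⟩
  rcases h.lie L with ⟨-, c, hc, ⟨hM', -⟩ | ⟨hM', -⟩⟩ | ⟨hP, hM', -⟩
  · -- `q - 1 = m c²`
    rw [hM] at hM'
    have h1 : (q ^ 3 + 1) * (Nat.card P * c ^ 2) = (q ^ 3 + 1) * (q - 1) := by
      linear_combination -hM'
    have h2 : Nat.card P * c ^ 2 = q - 1 := Nat.eq_of_mul_eq_mul_left (by omega) h1
    have h3 : q % 4 = 3 := by
      rw [hqk, pow_succ, pow_mul, Nat.mul_mod, Nat.pow_mod]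
      norm_num
    have h4 : (Nat.card P * c ^ 2) % 4 = 2 := by omega
    obtain ⟨j, hj⟩ := h.odd
    rcases Nat.even_or_odd' c with ⟨i, rfl | rfl⟩
    · have : Nat.card P * (2 * i) ^ 2 = 4 * (Nat.card P * i ^ 2) := by ring
      omega
    · have : Nat.card P * (2 * i + 1) ^ 2 = 2 * (j * (2 * i + 1) ^ 2 + 2 * i * (i + 1)) + 1 := by
        rw [hj]; ring
      omega
  · obtain ⟨z, hz⟩ := exists_pr hq (by norm_num : 3 ≤ 3) (by omega)
    refine not_dvd_pf (by omega) hz (by decide) (by decide)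
      (((hz.dvd_sub dvd_rfl).trans ?_).trans hMF)
    exact ⟨Nat.card P * c ^ 2, by rw [hM']; ring⟩
  · refine absurd (lt_of_le_pow (a := 3) (s := 5) (h.three_le_of_card L hP) (by norm_num)
      (by norm_num) ?_) (not_lt.2 hM')
    refine (Nat.le_of_dvd ?_ hMF).trans ((pf_le hq _ _).trans (by simp))
    simp only [pf, List.map_cons, List.map_nil, List.prod_cons, List.prod_nil, mul_one, pow_one]
    exact Nat.mul_pos (by omega) (by omega)

/-- `PSL₃(q)`: a numerical consequence. -/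
theorem IsDCC.psl3 (L : LieHyp G r q 3 M) {g : ℕ} (hg : 1 ≤ g)
    (hM : g * M = (q ^ 2 - 1) * (q ^ 3 - 1)) :
    ∃ c : ℕ, 0 < c ∧ Nat.card P * (g * c ^ 2) = q ^ 2 - 1 ∧
      Nat.Coprime (Nat.card P) (q ^ 3 - 1) ∧ Nat.Coprime (Nat.card P) q := by
  have hq : 2 ≤ q := L.one_lt
  have hQ : 8 ≤ q ^ 3 := by
    calc 8 = 2 ^ 3 := by norm_num
      _ ≤ q ^ 3 := Nat.pow_le_pow_left hq 3
  have hMF : M ∣ pf q [2, 3] [] := ⟨g, by rw [mul_comm M g, hM]; simp [pf]⟩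
  have hle : M ≤ (q ^ 2 - 1) * (q ^ 3 - 1) := by rw [← hM]; exact Nat.le_mul_of_pos_left _ hg
  rcases h.lie L with ⟨hcq, c, hc, ⟨hM', -⟩ | ⟨hM', hcop⟩⟩ | ⟨hP, hM', -⟩
  · exfalso
    have hd : q ^ 3 + 1 ∣ M := ⟨Nat.card P * c ^ 2, by rw [hM']; ring⟩
    by_cases h2 : q = 2
    · subst h2
      have h1 : 2 ^ 3 + 1 ∣ (2 ^ 2 - 1) * (2 ^ 3 - 1) := hd.trans ⟨g, by rw [mul_comm M g, hM]⟩
      norm_num at h1
    · obtain ⟨z, hz⟩ := exists_pr hq (by norm_num : 3 ≤ 6) (by omega)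
      exact not_dvd_pf (by omega) hz (by decide) (by decide)
        (((hz.dvd_add (by omega) (by norm_num : 6 = 2 * 3) (by norm_num)).trans hd).trans hMF)
  · rw [hM'] at hM
    have h1 : (q ^ 3 - 1) * (Nat.card P * (g * c ^ 2)) = (q ^ 3 - 1) * (q ^ 2 - 1) := by
      linear_combination hM
    exact ⟨c, hc, Nat.eq_of_mul_eq_mul_left (by omega) h1,
      Nat.Coprime.coprime_dvd_right (Dvd.intro _ rfl) hcop, hcq⟩
  · exfalso
    refine absurd (lt_of_le_of_lt hle ?_) (not_lt.2 hM')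
    have h3 := h.three_le_of_card L hP
    have h4 : q ^ 2 + 2 < q ^ 3 + 1 := by nlinarith
    rw [mul_comm]
    apply Nat.mul_lt_mul_of_pos_left _ (by omega)
    have : 1 ≤ q ^ 2 := Nat.one_le_pow _ _ (by omega)
    omega

/-- `PSU₃(q)`: a numerical consequence. -/
theorem IsDCC.psu3 (L : LieHyp G r q 3 M) {g : ℕ} (hg : 1 ≤ g)
    (hM : g * M = (q ^ 2 - 1) * (q ^ 3 + 1)) :
    ∃ c : ℕ, 0 < c ∧ Nat.card P * (g * c ^ 2) = q ^ 2 - 1 ∧
      Nat.Coprime (Nat.card P) (q ^ 3 + 1) ∧ Nat.Coprime (Nat.card P) q := by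
  have hq : 2 ≤ q := L.one_lt
  have hMF : M ∣ pf q [2] [3] := ⟨g, by rw [mul_comm M g, hM]; simp [pf]⟩
  have hle : M ≤ (q ^ 2 - 1) * (q ^ 3 + 1) := by rw [← hM]; exact Nat.le_mul_of_pos_left _ hg
  rcases h.lie L with ⟨hcq, c, hc, ⟨hM', hcop⟩ | ⟨hM', -⟩⟩ | ⟨hP, hM', -⟩
  · rw [hM'] at hM
    have h1 : (q ^ 3 + 1) * (Nat.card P * (g * c ^ 2)) = (q ^ 3 + 1) * (q ^ 2 - 1) := by
      linear_combination hM
    exact ⟨c, hc, Nat.eq_of_mul_eq_mul_left (by omega) h1,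
      Nat.Coprime.coprime_dvd_right (Dvd.intro _ rfl) hcop, hcq⟩
  · exfalso
    obtain ⟨z, hz⟩ := exists_pr hq (by norm_num : 3 ≤ 3) (by omega)
    refine not_dvd_pf (by omega) hz (by decide) (by decide)
      (((hz.dvd_sub dvd_rfl).trans ?_).trans hMF)
    exact ⟨Nat.card P * c ^ 2, by rw [hM']; ring⟩
  · exfalso
    refine absurd (lt_of_le_of_lt hle ?_) (not_lt.2 hM')
    have h3 := h.three_le_of_card L hP
    have h2 : 1 ≤ q ^ 2 := Nat.one_le_pow _ _ (by omega)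
    have h4 : 3 * q ^ 2 ≤ q ^ 3 := by
      calc 3 * q ^ 2 ≤ q * q ^ 2 := Nat.mul_le_mul_right _ h3
        _ = q ^ 3 := by ring
    have h9 : 9 ≤ q ^ 2 := by nlinarith
    obtain ⟨A, hA⟩ : ∃ A, q ^ 2 = A + 1 := ⟨q ^ 2 - 1, by omega⟩
    obtain ⟨B, hB⟩ : ∃ B, q ^ 3 = B + 2 := ⟨q ^ 3 - 2, by omega⟩
    rw [hA] at h4 h9 ⊢
    rw [hB] at h4 ⊢
    rw [Nat.add_sub_cancel, Nat.add_sub_cancel, show B + 2 - 1 = B + 1 by omega]
    nlinarith

end

end Cfsg.Agent.H398.CC
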