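import Mathlib
import Cfsg.Agent.H398.CC.Data
import Cfsg.Agent.H398.CC.Cert

/-!
# Sporadic orders: no abelian CC-subgroup `P` of odd order with `|N(P)| = 2|P|`
-/

set_option autoImplicit false

namespace Cfsg.Agent.H398.CC

open Subgroup Cfsg Cert

universe u

variable {G : Type u} [Group G] {P : Subgroup G}

/-- The pair `(|P|, c)` is found by the search. -/
theorem IsDCC.mem_sols [Finite G] [IsSimpleGroup G] (h : IsDCC P) {l : List (ℕ × ℕ)} (hl : Good l)
    (hN : prodl l = Nat.card G) {t : G} (ht : orderOf t = 2) :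
    ∃ c d ρ : ℕ, (Nat.card P, c) ∈ sols l (Nat.card G) ∧ 2 ≤ d ∧
      Nat.card G = Nat.card P * (d * (d + 1)) * c ^ 2 ∧
      (d ≡ 1 [MOD Nat.card P] ∨ d + 2 ≡ 0 [MOD Nat.card P]) ∧ ρ ≤ 2 * d ∧
      Nat.card (centralizer ({t} : Set G)) = c * ρ := by
  classical
  have := Fintype.ofFinite G
  obtain ⟨μ, hμ⟩ := h.exists_hom_ne_one
  obtain ⟨α, β, hp⟩ := h.exists_pair μ hμ
  obtain ⟨d, hd0, hd⟩ := Cfsg.Agent.Characters.Core.isIrr_apply_one hp.irra
  obtain ⟨hd2, hmod, hcop, c, ρ, hc, hρ, hρ2, hG, hk, -, -⟩ := h.data ht hp hd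
  have h3 : 3 ≤ Nat.card P := by
    have h1 := h.one_lt
    obtain ⟨k, hk⟩ := h.odd
    omega
  exact ⟨c, d, ρ, Cert.mem_sols hl hN h.odd h3 hG hd2 hc hmod h.card_eq h.index_modEq, hd2, hG,
    hmod, hρ2, hk⟩

def l_tits : List (ℕ × ℕ) := [(2, 11), (3, 3), (5, 2), (13, 1)]

theorem good_tits : Good l_tits :=
  ⟨fun x hx => by
    simp only [l_tits, List.mem_cons, List.not_mem_nil, or_false] at hx
    rcases hx with rfl | rfl | rfl | rfl <;> norm_num, by decide⟩

theorem prod_tits : prodl l_tits = 17971200 := by decide +kernel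

theorem sols_tits : sols l_tits 17971200 = [] := by decide +kernel

def l_m11 : List (ℕ × ℕ) := [(2, 4), (3, 2), (5, 1), (11, 1)]

theorem good_m11 : Good l_m11 :=
  ⟨fun x hx => by
    simp only [l_m11, List.mem_cons, List.not_mem_nil, or_false] at hx
    rcases hx with rfl | rfl | rfl | rfl <;> norm_num, by decide⟩

theorem prod_m11 : prodl l_m11 = 7920 := by decide +kernel

theorem sols_m11 : sols l_m11 7920 = [] := by decide +kernel

def l_m12 : List (ℕ × ℕ) := [(2, 6), (3, 3), (5, 1), (11, 1)]

theorem good_m12 : Good l_m12 :=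
  ⟨fun x hx => by
    simp only [l_m12, List.mem_cons, List.not_mem_nil, or_false] at hx
    rcases hx with rfl | rfl | rfl | rfl <;> norm_num, by decide⟩

theorem prod_m12 : prodl l_m12 = 95040 := by decide +kernel

theorem sols_m12 : sols l_m12 95040 = [] := by decide +kernel

def l_m22 : List (ℕ × ℕ) := [(2, 7), (3, 2), (5, 1), (7, 1), (11, 1)]

theorem good_m22 : Good l_m22 :=
  ⟨fun x hx => by
    simp only [l_m22, List.mem_cons, List.not_mem_nil, or_false] at hx
    rcases hx with rfl | rfl | rfl | rfl | rfl <;> norm_num, by decide⟩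

theorem prod_m22 : prodl l_m22 = 443520 := by decide +kernel

theorem sols_m22 : sols l_m22 443520 = [] := by decide +kernel

def l_m23 : List (ℕ × ℕ) := [(2, 7), (3, 2), (5, 1), (7, 1), (11, 1), (23, 1)]

theorem good_m23 : Good l_m23 :=
  ⟨fun x hx => by
    simp only [l_m23, List.mem_cons, List.not_mem_nil, or_false] at hx
    rcases hx with rfl | rfl | rfl | rfl | rfl | rfl <;> norm_num, by decide⟩

theorem prod_m23 : prodl l_m23 = 10200960 := by decide +kernel

theorem sols_m23 : sols l_m23 10200960 = [] := by decide +kernel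

def l_m24 : List (ℕ × ℕ) := [(2, 10), (3, 3), (5, 1), (7, 1), (11, 1), (23, 1)]

theorem good_m24 : Good l_m24 :=
  ⟨fun x hx => by
    simp only [l_m24, List.mem_cons, List.not_mem_nil, or_false] at hx
    rcases hx with rfl | rfl | rfl | rfl | rfl | rfl <;> norm_num, by decide⟩

theorem prod_m24 : prodl l_m24 = 244823040 := by decide +kernel

theorem sols_m24 : sols l_m24 244823040 = [] := by decide +kernel

def l_j1 : List (ℕ × ℕ) := [(2, 3), (3, 1), (5, 1), (7, 1), (11, 1), (19, 1)]

theorem good_j1 : Good l_j1 :=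
  ⟨fun x hx => by
    simp only [l_j1, List.mem_cons, List.not_mem_nil, or_false] at hx
    rcases hx with rfl | rfl | rfl | rfl | rfl | rfl <;> norm_num, by decide⟩

theorem prod_j1 : prodl l_j1 = 175560 := by decide +kernel

theorem sols_j1 : sols l_j1 175560 = [(55, 1), (57, 1)] := by decide +kernel

def l_j2 : List (ℕ × ℕ) := [(2, 7), (3, 3), (5, 2), (7, 1)]

theorem good_j2 : Good l_j2 :=
  ⟨fun x hx => by
    simp only [l_j2, List.mem_cons, List.not_mem_nil, or_false] at hx
    rcases hx with rfl | rfl | rfl | rfl <;> norm_num, by decide⟩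

theorem prod_j2 : prodl l_j2 = 604800 := by decide +kernel

theorem sols_j2 : sols l_j2 604800 = [] := by decide +kernel

def l_j3 : List (ℕ × ℕ) := [(2, 7), (3, 5), (5, 1), (17, 1), (19, 1)]

theorem good_j3 : Good l_j3 :=
  ⟨fun x hx => by
    simp only [l_j3, List.mem_cons, List.not_mem_nil, or_false] at hx
    rcases hx with rfl | rfl | rfl | rfl | rfl <;> norm_num, by decide⟩

theorem prod_j3 : prodl l_j3 = 50232960 := by decide +kernel

theorem sols_j3 : sols l_j3 50232960 = [] := by decide +kernel

def l_j4 : List (ℕ × ℕ) := [(2, 21), (3, 3), (5, 1), (7, 1), (11, 3), (23, 1), (29, 1), (31, 1), (37, 1), (43, 1)]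

theorem good_j4 : Good l_j4 :=
  ⟨fun x hx => by
    simp only [l_j4, List.mem_cons, List.not_mem_nil, or_false] at hx
    rcases hx with rfl | rfl | rfl | rfl | rfl | rfl | rfl | rfl | rfl | rfl <;> norm_num, by decide⟩

theorem prod_j4 : prodl l_j4 = 86775571046077562880 := by decide +kernel

theorem sols_j4 : sols l_j4 86775571046077562880 = [] := by decide +kernel

def l_co1 : List (ℕ × ℕ) := [(2, 21), (3, 9), (5, 4), (7, 2), (11, 1), (13, 1), (23, 1)]

theorem good_co1 : Good l_co1 :=
  ⟨fun x hx => by
    simp only [l_co1, List.mem_cons, List.not_mem_nil, or_false] at hx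
    rcases hx with rfl | rfl | rfl | rfl | rfl | rfl | rfl <;> norm_num, by decide⟩

theorem prod_co1 : prodl l_co1 = 4157776806543360000 := by decide +kernel

theorem sols_co1 : sols l_co1 4157776806543360000 = [] := by decide +kernel

def l_co2 : List (ℕ × ℕ) := [(2, 18), (3, 6), (5, 3), (7, 1), (11, 1), (23, 1)]

theorem good_co2 : Good l_co2 :=
  ⟨fun x hx => by
    simp only [l_co2, List.mem_cons, List.not_mem_nil, or_false] at hx
    rcases hx with rfl | rfl | rfl | rfl | rfl | rfl <;> norm_num, by decide⟩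

theorem prod_co2 : prodl l_co2 = 42305421312000 := by decide +kernel

theorem sols_co2 : sols l_co2 42305421312000 = [] := by decide +kernel

def l_co3 : List (ℕ × ℕ) := [(2, 10), (3, 7), (5, 3), (7, 1), (11, 1), (23, 1)]

theorem good_co3 : Good l_co3 :=
  ⟨fun x hx => by
    simp only [l_co3, List.mem_cons, List.not_mem_nil, or_false] at hx
    rcases hx with rfl | rfl | rfl | rfl | rfl | rfl <;> norm_num, by decide⟩

theorem prod_co3 : prodl l_co3 = 495766656000 := by decide +kernel

theorem sols_co3 : sols l_co3 495766656000 = [] := by decide +kernel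

def l_mcl : List (ℕ × ℕ) := [(2, 7), (3, 6), (5, 3), (7, 1), (11, 1)]

theorem good_mcl : Good l_mcl :=
  ⟨fun x hx => by
    simp only [l_mcl, List.mem_cons, List.not_mem_nil, or_false] at hx
    rcases hx with rfl | rfl | rfl | rfl | rfl <;> norm_num, by decide⟩

theorem prod_mcl : prodl l_mcl = 898128000 := by decide +kernel

theorem sols_mcl : sols l_mcl 898128000 = [] := by decide +kernel

def l_hs : List (ℕ × ℕ) := [(2, 9), (3, 2), (5, 3), (7, 1), (11, 1)]

theorem good_hs : Good l_hs :=
  ⟨fun x hx => by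
    simp only [l_hs, List.mem_cons, List.not_mem_nil, or_false] at hx
    rcases hx with rfl | rfl | rfl | rfl | rfl <;> norm_num, by decide⟩

theorem prod_hs : prodl l_hs = 44352000 := by decide +kernel

theorem sols_hs : sols l_hs 44352000 = [] := by decide +kernel

def l_suz : List (ℕ × ℕ) := [(2, 13), (3, 7), (5, 2), (7, 1), (11, 1), (13, 1)]

theorem good_suz : Good l_suz :=
  ⟨fun x hx => by
    simp only [l_suz, List.mem_cons, List.not_mem_nil, or_false] at hx
    rcases hx with rfl | rfl | rfl | rfl | rfl | rfl <;> norm_num, by decide⟩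

theorem prod_suz : prodl l_suz = 448345497600 := by decide +kernel

theorem sols_suz : sols l_suz 448345497600 = [(7, 720)] := by decide +kernel

def l_he : List (ℕ × ℕ) := [(2, 10), (3, 3), (5, 2), (7, 3), (17, 1)]

theorem good_he : Good l_he :=
  ⟨fun x hx => by
    simp only [l_he, List.mem_cons, List.not_mem_nil, or_false] at hx
    rcases hx with rfl | rfl | rfl | rfl | rfl <;> norm_num, by decide⟩

theorem prod_he : prodl l_he = 4030387200 := by decide +kernel

theorem sols_he : sols l_he 4030387200 = [] := by decide +kernel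

def l_ru : List (ℕ × ℕ) := [(2, 14), (3, 3), (5, 3), (7, 1), (13, 1), (29, 1)]

theorem good_ru : Good l_ru :=
  ⟨fun x hx => by
    simp only [l_ru, List.mem_cons, List.not_mem_nil, or_false] at hx
    rcases hx with rfl | rfl | rfl | rfl | rfl | rfl <;> norm_num, by decide⟩

theorem prod_ru : prodl l_ru = 145926144000 := by decide +kernel

theorem sols_ru : sols l_ru 145926144000 = [] := by decide +kernel

def l_on : List (ℕ × ℕ) := [(2, 9), (3, 4), (5, 1), (7, 3), (11, 1), (19, 1), (31, 1)]

theorem good_on : Good l_on :=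
  ⟨fun x hx => by
    simp only [l_on, List.mem_cons, List.not_mem_nil, or_false] at hx
    rcases hx with rfl | rfl | rfl | rfl | rfl | rfl | rfl <;> norm_num, by decide⟩

theorem prod_on : prodl l_on = 460815505920 := by decide +kernel

theorem sols_on : sols l_on 460815505920 = [] := by decide +kernel

def l_ly : List (ℕ × ℕ) := [(2, 8), (3, 7), (5, 6), (7, 1), (11, 1), (31, 1), (37, 1), (67, 1)]

theorem good_ly : Good l_ly :=
  ⟨fun x hx => by
    simp only [l_ly, List.mem_cons, List.not_mem_nil, or_false] at hx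
    rcases hx with rfl | rfl | rfl | rfl | rfl | rfl | rfl | rfl <;> norm_num, by decide⟩

theorem prod_ly : prodl l_ly = 51765179004000000 := by decide +kernel

theorem sols_ly : sols l_ly 51765179004000000 = [] := by decide +kernel

def l_fi22 : List (ℕ × ℕ) := [(2, 17), (3, 9), (5, 2), (7, 1), (11, 1), (13, 1)]

theorem good_fi22 : Good l_fi22 :=
  ⟨fun x hx => by
    simp only [l_fi22, List.mem_cons, List.not_mem_nil, or_false] at hx
    rcases hx with rfl | rfl | rfl | rfl | rfl | rfl <;> norm_num, by decide⟩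

theorem prod_fi22 : prodl l_fi22 = 64561751654400 := by decide +kernel

theorem sols_fi22 : sols l_fi22 64561751654400 = [] := by decide +kernel

def l_fi23 : List (ℕ × ℕ) := [(2, 18), (3, 13), (5, 2), (7, 1), (11, 1), (13, 1), (17, 1), (23, 1)]

theorem good_fi23 : Good l_fi23 :=
  ⟨fun x hx => by
    simp only [l_fi23, List.mem_cons, List.not_mem_nil, or_false] at hx
    rcases hx with rfl | rfl | rfl | rfl | rfl | rfl | rfl | rfl <;> norm_num, by decide⟩

theorem prod_fi23 : prodl l_fi23 = 4089470473293004800 := by decide +kernel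

theorem sols_fi23 : sols l_fi23 4089470473293004800 = [] := by decide +kernel

def l_fi24 : List (ℕ × ℕ) := [(2, 21), (3, 16), (5, 2), (7, 3), (11, 1), (13, 1), (17, 1), (23, 1), (29, 1)]

theorem good_fi24 : Good l_fi24 :=
  ⟨fun x hx => by
    simp only [l_fi24, List.mem_cons, List.not_mem_nil, or_false] at hx
    rcases hx with rfl | rfl | rfl | rfl | rfl | rfl | rfl | rfl | rfl <;> norm_num, by decide⟩

theorem prod_fi24 : prodl l_fi24 = 1255205709190661721292800 := by decide +kernel

theorem sols_fi24 : sols l_fi24 1255205709190661721292800 = [] := by decide +kernel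

def l_hn : List (ℕ × ℕ) := [(2, 14), (3, 6), (5, 6), (7, 1), (11, 1), (19, 1)]

theorem good_hn : Good l_hn :=
  ⟨fun x hx => by
    simp only [l_hn, List.mem_cons, List.not_mem_nil, or_false] at hx
    rcases hx with rfl | rfl | rfl | rfl | rfl | rfl <;> norm_num, by decide⟩

theorem prod_hn : prodl l_hn = 273030912000000 := by decide +kernel

theorem sols_hn : sols l_hn 273030912000000 = [] := by decide +kernel

def l_th : List (ℕ × ℕ) := [(2, 15), (3, 10), (5, 3), (7, 2), (13, 1), (19, 1), (31, 1)]

theorem good_th : Good l_th :=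
  ⟨fun x hx => by
    simp only [l_th, List.mem_cons, List.not_mem_nil, or_false] at hx
    rcases hx with rfl | rfl | rfl | rfl | rfl | rfl | rfl <;> norm_num, by decide⟩

theorem prod_th : prodl l_th = 90745943887872000 := by decide +kernel

theorem sols_th : sols l_th 90745943887872000 = [] := by decide +kernel

def l_b : List (ℕ × ℕ) := [(2, 41), (3, 13), (5, 6), (7, 2), (11, 1), (13, 1), (17, 1), (19, 1), (23, 1), (31, 1), (47, 1)]

theorem good_b : Good l_b :=
  ⟨fun x hx => by
    simp only [l_b, List.mem_cons, List.not_mem_nil, or_false] at hx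
    rcases hx with rfl | rfl | rfl | rfl | rfl | rfl | rfl | rfl | rfl | rfl | rfl <;> norm_num, by decide⟩

theorem prod_b : prodl l_b = 4154781481226426191177580544000000 := by decide +kernel

theorem sols_b : sols l_b 4154781481226426191177580544000000 = [] := by decide +kernel

def l_m : List (ℕ × ℕ) := [(2, 46), (3, 20), (5, 9), (7, 6), (11, 2), (13, 3), (17, 1), (19, 1), (23, 1), (29, 1), (31, 1), (41, 1), (47, 1), (59, 1), (71, 1)]

theorem good_m : Good l_m :=
  ⟨fun x hx => by
    simp only [l_m, List.mem_cons, List.not_mem_nil, or_false] at hx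
    rcases hx with rfl | rfl | rfl | rfl | rfl | rfl | rfl | rfl | rfl | rfl | rfl | rfl | rfl | rfl | rfl <;> norm_num, by decide⟩

theorem prod_m : prodl l_m = 808017424794512875886459904961710757005754368000000000 := by decide +kernel

theorem sols_m : sols l_m 808017424794512875886459904961710757005754368000000000 = [] := by decide +kernel

def l_a7 : List (ℕ × ℕ) := [(2, 3), (3, 2), (5, 1), (7, 1)]

theorem good_a7 : Good l_a7 :=
  ⟨fun x hx => by
    simp only [l_a7, List.mem_cons, List.not_mem_nil, or_false] at hx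
    rcases hx with rfl | rfl | rfl | rfl <;> norm_num, by decide⟩

theorem prod_a7 : prodl l_a7 = 2520 := by decide +kernel

theorem sols_a7 : sols l_a7 2520 = [(35, 1)] := by decide +kernel

end Cfsg.Agent.H398.CC
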